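import Mathlib

/-! Fixed spaces of group elements on modules: kernel dimensions, induction on composition length. -/

set_option autoImplicit false
set_option linter.unusedSectionVars false

namespace Cfsg.Agent.Fix6

open Module

universe u v

section Kd
variable {K V : Type*} [Field K] [AddCommGroup V] [Module K V] [FiniteDimensional K V]

/-- the dimension of the kernel -/
noncomputable abbrev kd (A : End K V) : ℕ := finrank K (LinearMap.ker A)

theorem kd_mul_le (A B : End K V) : kd (A * B) ≤ kd A + kd B := by
  let f : LinearMap.ker (A * B) →ₗ[K] V := B ∘ₗ (LinearMap.ker (A * B)).subtype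
  have h1 := LinearMap.finrank_range_add_finrank_ker f
  have h2 : finrank K (LinearMap.range f) ≤ kd A := by
    apply Submodule.finrank_mono
    rintro _ ⟨v, rfl⟩
    exact v.2
  have h3 : finrank K (LinearMap.ker f) ≤ kd B := by
    rw [← Submodule.finrank_map_subtype_eq]
    apply Submodule.finrank_mono
    rintro _ ⟨v, hv, rfl⟩
    exact hv
  unfold kd at *
  omega

theorem kd_one : kd (1 : End K V) = 0 := by
  unfold kd
  rw [End.one_eq_id, LinearMap.ker_id, finrank_bot]

theorem kd_zero : kd (0 : End K V) = finrank K V := by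
  unfold kd
  rw [LinearMap.ker_zero, finrank_top]

theorem kd_list_le (l : List (End K V)) : kd l.prod ≤ (l.map kd).sum := by
  induction l with
  | nil => simp only [List.prod_nil, List.map_nil, List.sum_nil, kd_one, le_refl]
  | cons A l ih =>
    simp only [List.prod_cons, List.map_cons, List.sum_cons]
    exact (kd_mul_le _ _).trans (by omega)

theorem kd_pow_le (A : End K V) (m : ℕ) : kd (A ^ m) ≤ m * kd A := by
  induction m with
  | zero => simp only [pow_zero, kd_one, zero_mul, le_refl]
  | succ m ih =>
    rw [pow_succ]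
    exact (kd_mul_le _ _).trans (by nlinarith)

/-- two subspaces meet in large dimension -/
theorem le_inf_add (U W : Submodule K V) :
    finrank K U + finrank K W ≤ finrank K V + finrank K (U ⊓ W : Submodule K V) := by
  have := Submodule.finrank_sup_add_finrank_inf_eq U W
  have := Submodule.finrank_le (U ⊔ W)
  omega

end Kd

/-- ranks of compatible idempotents are additive in short exact sequences -/
theorem rk_add {K A B C : Type*} [Field K] [AddCommGroup A] [Module K A] [AddCommGroup B] [Module K B]
    [AddCommGroup C] [Module K C] [FiniteDimensional K B]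
    (i : A →ₗ[K] B) (π : B →ₗ[K] C) (hi : Function.Injective i) (hπ : Function.Surjective π)
    (hex : ∀ b, π b = 0 ↔ b ∈ LinearMap.range i)
    (eA : End K A) (eB : End K B) (eC : End K C) (hB : ∀ b, eB (eB b) = eB b)
    (h1 : ∀ a, eB (i a) = i (eA a)) (h2 : ∀ b, eC (π b) = π (eB b)) :
    finrank K (LinearMap.range eB) = finrank K (LinearMap.range eA) + finrank K (LinearMap.range eC) := by
  let f : LinearMap.range eB →ₗ[K] C := π ∘ₗ (LinearMap.range eB).subtype
  have h := LinearMap.finrank_range_add_finrank_ker f
  have hr : LinearMap.range f = LinearMap.range eC := by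
    ext c
    constructor
    · rintro ⟨⟨_, b, rfl⟩, rfl⟩
      exact ⟨π b, h2 b⟩
    · rintro ⟨c, rfl⟩
      obtain ⟨b, rfl⟩ := hπ c
      exact ⟨⟨eB b, b, rfl⟩, (h2 b).symm⟩
  have hk : (LinearMap.ker f).map (LinearMap.range eB).subtype = (LinearMap.range eA).map i := by
    ext b
    constructor
    · rintro ⟨⟨_, b, rfl⟩, hb, rfl⟩
      obtain ⟨a, ha⟩ := (hex (eB b)).1 hb
      refine ⟨eA a, ⟨a, rfl⟩, ?_⟩
      rw [← h1, ha, hB]; rfl
    · rintro ⟨_, ⟨a, rfl⟩, rfl⟩
      exact ⟨⟨i (eA a), i a, h1 a⟩, (hex _).2 ⟨_, rfl⟩, rfl⟩
  have h3 : finrank K (LinearMap.ker f) = finrank K (LinearMap.range eA) := by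
    rw [← Submodule.finrank_map_subtype_eq, hk]
    exact (LinearEquiv.finrank_eq (Submodule.equivMapOfInjective i hi _)).symm
  rw [hr, h3] at h
  omega

section Rep
variable {K : Type u} [Field K] {G : Type*} [Group G]

/-- every non-identity element has a fixed space of dimension less than a sixth -/
def Small {V : Type*} [AddCommGroup V] [Module K V] (ρ : Representation K G V) : Prop :=
  ∀ h : G, h ≠ 1 → 6 * finrank K (LinearMap.ker (ρ h - 1)) < finrank K V

/-- irreducible: the invariant subspaces are the trivial ones -/
def Irr {V : Type*} [AddCommGroup V] [Module K V] (ρ : Representation K G V) : Prop :=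
  ∀ U : Submodule K V, (∀ g, U ≤ U.comap (ρ g)) → U = ⊥ ∨ U = ⊤

theorem Small.comp {V : Type*} [AddCommGroup V] [Module K V] {ρ : Representation K G V} (h : Small ρ)
    {L : Type*} [Group L] (φ : L →* G) (hφ : Function.Injective φ) : Small (K := K) (ρ.comp φ) :=
  fun g hg => h (φ g) fun e => hg (hφ (e.trans (map_one φ).symm))

/-- induction on the composition length -/
theorem rep_induct
    (P : ∀ (V : Type v) [AddCommGroup V] [Module K V] [FiniteDimensional K V], Representation K G V → Prop)
    (h0 : ∀ (V : Type v) [AddCommGroup V] [Module K V] [FiniteDimensional K V] (ρ : Representation K G V),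
      finrank K V = 0 → P V ρ)
    (hs : ∀ (V : Type v) [AddCommGroup V] [Module K V] [FiniteDimensional K V] (ρ : Representation K G V),
      Nontrivial V → Irr ρ → P V ρ)
    (he : ∀ (V : Type v) [AddCommGroup V] [Module K V] [FiniteDimensional K V] (ρ : Representation K G V)
      (U : Submodule K V) (hU : ∀ g, U ≤ U.comap (ρ g)),
      P U (ρ.subrepresentation U hU) → P (V ⧸ U) (ρ.quotient U hU) → P V ρ)
    (V : Type v) [AddCommGroup V] [Module K V] [FiniteDimensional K V] (ρ : Representation K G V) : P V ρ := by
  induction hn : finrank K V using Nat.strong_induction_on generalizing V with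
  | _ n ih =>
    by_cases hz : finrank K V = 0
    · exact h0 V ρ hz
    have hnt : Nontrivial V := Module.nontrivial_of_finrank_pos (R := K) (Nat.pos_of_ne_zero hz)
    by_cases hI : Irr ρ
    · exact hs V ρ hnt hI
    unfold Irr at hI
    push Not at hI
    obtain ⟨U, hU, h1, h2⟩ := hI
    have e := Submodule.finrank_quotient_add_finrank U
    have a1 := Submodule.finrank_lt h2
    have a2 : finrank K U ≠ 0 := fun h => h1 (Submodule.finrank_eq_zero.1 h)
    exact he V ρ U hU (ih _ (by omega) U _ rfl) (ih _ (by omega) (V ⧸ U) _ rfl)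

/-- the averaging operator of an element of order three -/
noncomputable def av3 {V : Type*} [AddCommGroup V] [Module K V] (A : End K V) : End K V :=
  (3 : K)⁻¹ • (1 + A + A * A)

theorem av3_range {V : Type*} [AddCommGroup V] [Module K V] (h3 : (3 : K) ≠ 0) (A : End K V) (hA : A * A * A = 1) :
    LinearMap.range (av3 A) = LinearMap.ker (A - 1) := by
  ext v
  simp only [LinearMap.mem_ker, LinearMap.sub_apply, End.one_apply, sub_eq_zero]
  constructor
  · rintro ⟨w, rfl⟩
    have := congrArg (fun B : End K V => B w) hA
    simp only [End.mul_apply, End.one_apply] at this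
    simp only [av3, LinearMap.smul_apply, LinearMap.add_apply, End.one_apply, End.mul_apply, map_smul, map_add, this]
    congr 1
    abel
  · intro hv
    refine ⟨v, ?_⟩
    simp only [av3, LinearMap.smul_apply, LinearMap.add_apply, End.one_apply, End.mul_apply, hv]
    rw [show v + v + v = (3 : K) • v by rw [show (3 : K) = 1 + 1 + 1 by norm_num, add_smul, add_smul, one_smul],
      smul_smul, inv_mul_cancel₀ h3, one_smul]

/-- fixed spaces of an element of order three are additive -/
theorem fix3_add {V : Type*} [AddCommGroup V] [Module K V] [FiniteDimensional K V] (h3 : (3 : K) ≠ 0)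
    (ρ : Representation K G V) (U : Submodule K V) (hU : ∀ g, U ≤ U.comap (ρ g)) (x : G) (hx : x * x * x = 1) :
    kd (ρ x - 1) = kd (ρ.subrepresentation U hU x - 1) + kd (ρ.quotient U hU x - 1) := by
  have hV : ρ x * ρ x * ρ x = 1 := by rw [← map_mul, ← map_mul, hx, map_one]
  have hU' : ρ.subrepresentation U hU x * ρ.subrepresentation U hU x * ρ.subrepresentation U hU x = 1 := by
    rw [← map_mul, ← map_mul, hx, map_one]
  have hQ : ρ.quotient U hU x * ρ.quotient U hU x * ρ.quotient U hU x = 1 := by
    rw [← map_mul, ← map_mul, hx, map_one]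
  unfold kd
  rw [← av3_range h3 _ hV, ← av3_range h3 _ hU', ← av3_range h3 _ hQ]
  refine rk_add U.subtype U.mkQ U.injective_subtype U.mkQ_surjective (fun b => by simp) _ _ _ (fun b => ?_)
    (fun a => rfl) (fun b => rfl)
  have hb : av3 (ρ x) b ∈ LinearMap.ker (ρ x - 1) := av3_range h3 _ hV ▸ ⟨b, rfl⟩
  simp only [LinearMap.mem_ker, LinearMap.sub_apply, End.one_apply, sub_eq_zero] at hb
  generalize av3 (ρ x) b = v at hb
  simp only [av3, LinearMap.smul_apply, LinearMap.add_apply, End.one_apply, End.mul_apply, hb]
  rw [show v + v + v = (3 : K) • v by rw [show (3 : K) = 1 + 1 + 1 by norm_num, add_smul, add_smul, one_smul],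
    smul_smul, inv_mul_cancel₀ h3, one_smul]

end Rep

end Cfsg.Agent.Fix6
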