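import Cfsg.Agent.Fix6.Ineq

/-! The irreducible modules of `SL₂(p)` in characteristic `p` are the modules of binary forms of degree `< p`. -/

set_option autoImplicit false
set_option linter.unusedSectionVars false

namespace Cfsg.Agent.Fix6

open Module Matrix MvPolynomial
open scoped MatrixGroups

variable {K : Type*} [Field K] [IsAlgClosed K] {p : ℕ} [Fact p.Prime] [CharP K p] (ι : ZMod p →+* K)
variable {V : Type*} [AddCommGroup V] [Module K V] [FiniteDimensional K V] (ρ : Representation K SL(2, ZMod p) V)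

theorem uu_nil : (ρ (uu 1) - 1) ^ p = 0 := by
  have h : ρ (uu 1) ^ p = 1 := by rw [← map_pow, uu_pow]; simp [uu_zero]
  rcases subsingleton_or_nontrivial (End K V) with _ | _
  · exact Subsingleton.elim _ _
  have : CharP (End K V) p := charP_of_injective_algebraMap (algebraMap K (End K V)).injective p
  rw [sub_pow_char_of_commute _ (Commute.one_right _), h, one_pow, sub_self]

theorem uu_fix {v : V} (h : ρ (uu 1) v = v) (s : ZMod p) : ρ (uu s) v = v := by
  have : uu s = uu (1 : ZMod p) ^ s.val := by rw [uu_pow]; simp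
  rw [this, map_pow]
  induction s.val with
  | zero => rfl
  | succ n ih => rw [pow_succ, End.mul_apply, h, ih]

theorem hh_pow {F : Type*} [Field F] (a : Fˣ) (n : ℕ) : hh a ^ n = hh (a ^ n) := by
  induction n with
  | zero => apply sl_ext <;> simp
  | succ n ih => rw [pow_succ, ih]; apply sl_ext <;> simp [sl_mul, pow_succ, mul_comm]

theorem pow_pm {a : ZMod p} (ha : a ≠ 0) : ι a ^ (p - 1) = 1 := by
  rw [← map_pow, ZMod.pow_card_sub_one_eq_one ha, map_one]

/-- highest weight vectors exist -/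
theorem exists_hw [Nontrivial V] : ∃ k, 1 ≤ k ∧ k < p ∧ ∃ v, v ≠ 0 ∧ v ∈ Wt ι ρ k := by
  have hp := (Fact.out : p.Prime).two_le
  obtain ⟨γ, hγ⟩ := IsCyclic.exists_monoid_generator (α := (ZMod p)ˣ)
  have ho : orderOf γ = p - 1 := by
    rw [orderOf_eq_card_of_forall_mem_powers hγ, Nat.card_eq_fintype_card, ZMod.card_units]
  have hpr : IsPrimitiveRoot (ι γ) (p - 1) :=
    (IsPrimitiveRoot.coe_units_iff.2 (ho ▸ IsPrimitiveRoot.orderOf γ)).map_of_injective ι.injective
  let U := LinearMap.ker (ρ (uu 1) - 1)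
  have hU : ∀ v, v ∈ U ↔ ρ (uu 1) v = v := fun v => by simp [U, sub_eq_zero]
  have hn : Nontrivial U := by
    have h1 := kd_pow_le (ρ (uu 1) - 1) p
    rw [uu_nil, kd_zero] at h1
    have h2 : 0 < finrank K V := finrank_pos
    exact Module.nontrivial_of_finrank_pos (R := K) (Nat.pos_of_ne_zero fun h => by
      rw [show kd (ρ (uu 1) - 1) = 0 from h] at h1; omega)
  have hi : ∀ v ∈ U, ρ (hh γ) v ∈ U := fun v hv => by
    have : uu 1 * hh γ = hh γ * uu ((γ⁻¹ : (ZMod p)ˣ) * (γ⁻¹ : (ZMod p)ˣ) : ZMod p) := by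
      apply sl_ext <;> simp only [sl_mul, uu00, uu01, uu10, uu11, hh00, hh01, hh10, hh11, ← mul_assoc, Units.mul_inv] <;>
        ring
    rw [hU, ← End.mul_apply, ← map_mul, this, map_mul, End.mul_apply, uu_fix ρ ((hU v).1 hv)]
  obtain ⟨μ, hμ⟩ := End.exists_eigenvalue ((ρ (hh γ)).restrict hi)
  obtain ⟨⟨v, hv⟩, hv1⟩ := hμ.exists_hasEigenvector
  have h0 : v ≠ 0 := fun h => hv1.2 (Subtype.ext h)
  have h1 : ρ (hh γ) v = μ • v := congrArg Subtype.val hv1.apply_eq_smul
  have h2 : ∀ n : ℕ, ρ (hh (γ ^ n)) v = μ ^ n • v := by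
    intro n
    rw [← hh_pow, map_pow]
    induction n with
    | zero => simp
    | succ n ih => rw [pow_succ, End.mul_apply, h1, map_smul, ih, smul_smul, pow_succ']
  have h3 : μ ^ (p - 1) = 1 := by
    have := h2 (p - 1)
    rw [← hh_pow, hh_pow, ← ho, pow_orderOf_eq_one, show hh (1 : (ZMod p)ˣ) = 1 by apply sl_ext <;> simp, map_one,
      End.one_apply, ho] at this
    exact (smul_left_injective K h0 (show (1 : K) • v = _ by rw [one_smul]; exact this)).symm
  have : NeZero (p - 1) := ⟨by omega⟩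
  obtain ⟨i, hi1, hi2⟩ := hpr.eq_pow_of_pow_eq_one h3
  obtain ⟨k, hk1, hk2, hk3⟩ : ∃ k, 1 ≤ k ∧ k < p ∧ ι γ ^ k = μ := by
    rcases Nat.eq_zero_or_pos i with rfl | h
    · exact ⟨p - 1, by omega, by omega, by rw [← hi2, pow_zero, pow_pm ι γ.ne_zero]⟩
    · exact ⟨i, h, by omega, hi2⟩
  refine ⟨k, hk1, hk2, v, h0, fun g hg => ?_⟩
  obtain ⟨⟨s, a⟩, h⟩ := bor_bij.2 ⟨g, hg⟩
  obtain rfl : uu s * hh a = g := congrArg Subtype.val h
  obtain ⟨n, rfl⟩ := hγ a
  rw [map_mul, End.mul_apply, h2, map_smul, uu_fix ρ ((hU v).1 hv), ← hk3]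
  simp [sl_mul, ← pow_mul, mul_comm]

theorem sum_io_pow {k : ℕ} (hk0 : 1 ≤ k) (hk : k < p) : ∑ t : ZMod p, ι t ^ k = if k = p - 1 then -1 else 0 := by
  classical
  simp only [← map_pow, ← map_sum]
  split_ifs with h
  · rw [← Finset.add_sum_erase _ _ (Finset.mem_univ 0), zero_pow (by omega), zero_add,
      Finset.sum_congr rfl (g := fun _ => 1) fun t ht => by
        rw [h]; exact ZMod.pow_card_sub_one_eq_one (Finset.ne_of_mem_erase ht)]
    simp only [Finset.sum_const, Finset.card_erase_of_mem (Finset.mem_univ _), Finset.card_univ, ZMod.card, nsmul_eq_mul,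
      mul_one, map_natCast]
    rw [Nat.cast_sub (Fact.out : p.Prime).one_le]; simp
  · rw [FiniteField.sum_pow_lt_card_sub_one (ZMod p) k (by rw [ZMod.card]; omega), map_zero]

theorem exists_vec [Nontrivial V] {k : ℕ} (hk0 : 1 ≤ k) (hk : k < p) (ℓ : Dual K V)
    (hinj : ∀ v, (∀ g, ℓ (ρ g v) = 0) → v = 0) (hℓ : ∀ b ∈ Bor, ∀ v, ℓ (ρ b v) = ι (b 1 1) ^ k * ℓ v) :
    ∃ k' < p, ∃ v, ∀ g, ℓ (ρ g v) = ι (g 1 0) ^ k' := by
  classical
  obtain ⟨k0, -, -, v, hv0, hv⟩ := exists_hw ι ρ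
  have hu : ∀ s, ρ (uu s) v = v := fun s => by simpa using hv (uu s) (by simp [mem_Bor])
  obtain ⟨α, hα⟩ : ∃ α, α = ℓ (ρ ww⁻¹ v) := ⟨_, rfl⟩
  obtain ⟨β, hβ⟩ : ∃ β, β = ℓ v := ⟨_, rfl⟩
  have hf : ∀ g, ℓ (ρ g v) = ι (g 1 0) ^ k * α + if g 1 0 = 0 then ι (g 1 1) ^ k * β else 0 := by
    intro g
    split_ifs with h
    · rw [hℓ g h, h, map_zero, zero_pow (by omega), zero_mul, zero_add, hβ]
    · have e : g = (g * uu (-(g 1 1 / g 1 0)) * ww) * ww⁻¹ * uu (g 1 1 / g 1 0) := by
        rw [mul_inv_cancel_right, mul_assoc, ← uu_add, neg_add_cancel, uu_zero, mul_one]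
      have hb : g * uu (-(g 1 1 / g 1 0)) * ww ∈ Bor := by
        simp only [mem_Bor, sl_mul, uu00, uu01, uu10, uu11, ww00, ww10]
        field_simp
        ring
      conv_lhs => rw [e, map_mul, map_mul, End.mul_apply, End.mul_apply, hu, hℓ _ hb]
      simp [sl_mul, hα]
  have hT : ∀ g, ℓ (ρ g (∑ s, ρ (uu s * ww) v)) = ι (g 1 0) ^ k * (β + (if k = p - 1 then -1 else 0) * α) := by
    intro g
    have e : ∀ s, ℓ (ρ g (ρ (uu s * ww) v)) = ι (-(g 1 0 * s + g 1 1)) ^ k * α +
        if -(g 1 0 * s + g 1 1) = 0 then ι (g 1 0) ^ k * β else 0 := by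
      intro s
      rw [← End.mul_apply, ← map_mul, ← mul_assoc, hf]
      simp [sl_mul]
    simp only [map_sum, e]
    by_cases h : g 1 0 = 0
    · simp only [h, zero_mul, zero_add, Finset.sum_const, Finset.card_univ, ZMod.card, nsmul_eq_mul, CharP.cast_eq_zero,
        map_zero, zero_pow (show k ≠ 0 by omega)]
    have hb : Function.Bijective fun s : ZMod p => -(g 1 0 * s + g 1 1) :=
      Finite.injective_iff_bijective.1 fun a b hab => mul_left_cancel₀ h (by linear_combination -hab)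
    rw [hb.sum_comp (fun t => ι t ^ k * α + if t = 0 then ι (g 1 0) ^ k * β else 0), Finset.sum_add_distrib,
      ← Finset.sum_mul, sum_io_pow ι hk0 hk, Finset.sum_ite_eq' Finset.univ 0, if_pos (Finset.mem_univ _)]
    split_ifs with h1
    · rw [h1, pow_pm ι h]; ring
    · ring
  by_cases h1 : β + (if k = p - 1 then -1 else 0) * α = 0
  swap
  · refine ⟨k, hk, (β + (if k = p - 1 then -1 else 0) * α)⁻¹ • ∑ s, ρ (uu s * ww) v, fun g => ?_⟩
    rw [map_smul, map_smul, hT, smul_eq_mul, mul_comm, mul_assoc, mul_inv_cancel₀ h1, mul_one]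
  have hα0 : α ≠ 0 := fun h => hv0 (hinj v fun g => by
    rw [h, mul_zero, add_zero] at h1
    simp [hf, h, h1])
  split_ifs at h1 with h2
  · refine ⟨0, by omega, α⁻¹ • v, fun g => ?_⟩
    have h3 : β = α := by linear_combination h1
    rw [map_smul, map_smul, hf, smul_eq_mul, pow_zero, h3]
    split_ifs with h
    · have : g 1 1 ≠ 0 := right_ne_zero_of_mul_eq_one (bor_det h)
      rw [h, map_zero, zero_pow (by omega), zero_mul, zero_add, h2, pow_pm ι this, one_mul, inv_mul_cancel₀ hα0]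
    · rw [h2, pow_pm ι h, one_mul, add_zero, inv_mul_cancel₀ hα0]
  · refine ⟨k, hk, α⁻¹ • v, fun g => ?_⟩
    have h3 : β = 0 := by linear_combination h1
    rw [map_smul, map_smul, hf, smul_eq_mul, h3, mul_zero, ite_self, add_zero, mul_comm, mul_assoc,
      mul_inv_cancel₀ hα0, mul_one]

theorem classify [Nontrivial V] (hI : Irr ρ) :
    ∃ k < p, ∃ e : V ≃ₗ[K] S K k, ∀ g v, sS ι k g (e v) = e (ρ g v) := by
  obtain ⟨k0, hk1, hk2, ℓ, hℓ0, hℓ⟩ := exists_hw ι ρ.dual
  let J : V →ₗ[K] (SL(2, ZMod p) → K) := LinearMap.pi fun g => ℓ ∘ₗ ρ g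
  have hJ : ∀ v g, J v g = ℓ (ρ g v) := fun _ _ => rfl
  have hJg : ∀ v h g, J (ρ h v) g = J v (g * h) := fun v h g => by rw [hJ, hJ, map_mul, End.mul_apply]
  have hJi : Function.Injective J := by
    rw [← LinearMap.ker_eq_bot]
    refine (hI _ fun h v hv => ?_).resolve_right fun h => hℓ0 ?_
    · exact funext fun g => (hJg v h g).trans (congrFun hv _)
    · ext v
      have : J v = 0 := show v ∈ LinearMap.ker J from h ▸ Submodule.mem_top
      simpa [hJ] using congrFun this 1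
  obtain ⟨k, hk, v, hv⟩ := exists_vec ι ρ hk1 hk2 ℓ (fun v h => hJi (by rw [map_zero]; exact funext h)) fun b hb v => by
    have := LinearMap.congr_fun (hℓ b⁻¹ (Bor.inv_mem hb)) v
    rw [(sl_inv b).1] at this
    simpa [Module.Dual.transpose_apply] using this
  let E : S K k →ₗ[K] (SL(2, ZMod p) → K) :=
    LinearMap.pi fun g => (evp (ι (g 1 0)) (ι (g 1 1))).toLinearMap ∘ₗ (S K k).subtype
  have hE : ∀ f g, E f g = evp (ι (g 1 0)) (ι (g 1 1)) (f : PR K) := fun _ _ => rfl
  have hEg : ∀ f h g, E (sS ι k h f) g = E f (g * h) := fun f h g => by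
    rw [hE, hE, sS_val, evp_sb]
    simp [sl_mul]
  have hEi : Function.Injective E := by
    rw [← LinearMap.ker_eq_bot, Submodule.eq_bot_iff]
    intro f hf
    refine Subtype.ext (ev_inj ι hk f.2 fun s => ?_)
    have := congrFun (show E f = 0 from hf) (ww⁻¹ * uu s)
    rw [hE, sl_mul, sl_mul, (sl_inv _).2.2.1, (sl_inv _).2.2.2] at this
    simpa using this
  have hvE : J v = E (mS K k 0) := funext fun g => by rw [hJ, hv, hE]; simp [mS, evp_mon]
  have hr : LinearMap.range J = LinearMap.range E := by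
    apply le_antisymm
    · have := (hI ((LinearMap.range E).comap J) fun h w ⟨f, hf⟩ =>
        ⟨sS ι k h f, funext fun g => by rw [hEg, hf]; exact (hJg w h g).symm⟩).resolve_left fun h => by
          have : v = 0 := (Submodule.eq_bot_iff _).1 h v ⟨_, hvE.symm⟩
          rw [this, map_zero] at hvE
          exact mS_ne 0 (hEi (hvE.symm.trans (map_zero _).symm))
      rintro _ ⟨w, rfl⟩
      exact (this ▸ Submodule.mem_top : w ∈ (LinearMap.range E).comap J)
    · have := genX ι hk (Φ := (LinearMap.range J).mkQ ∘ₗ E) fun h => by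
        rw [LinearMap.comp_apply, Submodule.mkQ_apply, Submodule.Quotient.mk_eq_zero]
        exact ⟨ρ h v, funext fun g => by rw [hJg, hEg, hvE]⟩
      rintro _ ⟨f, rfl⟩
      exact (Submodule.Quotient.mk_eq_zero _).1 (LinearMap.congr_fun this f)
  let e : V ≃ₗ[K] S K k := (LinearEquiv.ofInjective J hJi).trans
    ((LinearEquiv.ofEq _ _ hr).trans (LinearEquiv.ofInjective E hEi).symm)
  have he : ∀ w, E (e w) = J w := fun w =>
    congrArg Subtype.val ((LinearEquiv.ofInjective E hEi).apply_symm_apply _)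
  exact ⟨k, hk, e, fun h w => hEi (funext fun g => by rw [hEg, he, he, hJg])⟩

end Cfsg.Agent.Fix6
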