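import Cfsg.Agent.Fix6.Basic

/-! The Steinberg idempotent of `SL₂(p)` in characteristic `p`. -/

set_option autoImplicit false
set_option linter.unusedSectionVars false

namespace Cfsg.Agent.Fix6

open Module Matrix
open scoped MatrixGroups

section Mat
variable {F : Type*} [Field F]

/-- upper unitriangular -/
def uu (s : F) : SL(2, F) := ⟨!![1, s; 0, 1], by simp [det_fin_two]⟩
/-- the Weyl element -/
def ww : SL(2, F) := ⟨!![0, 1; -1, 0], by simp [det_fin_two]⟩
/-- diagonal -/
def hh (a : Fˣ) : SL(2, F) := ⟨!![(a : F), 0; 0, (a⁻¹ : Fˣ)], by simp [det_fin_two]⟩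
/-- an element of order three -/
def xx : SL(2, F) := ⟨!![0, -1; 1, -1], by simp [det_fin_two]⟩

theorem sl_ext {g h : SL(2, F)} (h00 : g 0 0 = h 0 0) (h01 : g 0 1 = h 0 1) (h10 : g 1 0 = h 1 0)
    (h11 : g 1 1 = h 1 1) : g = h := by
  ext i j
  fin_cases i <;> fin_cases j <;> assumption

theorem sl_mul (g h : SL(2, F)) (i j : Fin 2) : (g * h) i j = g i 0 * h 0 j + g i 1 * h 1 j := by
  simp [Matrix.mul_apply, Fin.sum_univ_two]

theorem sl_det (g : SL(2, F)) : g 0 0 * g 1 1 - g 0 1 * g 1 0 = 1 := by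
  have := g.2
  rwa [det_fin_two] at this

theorem sl_inv (g : SL(2, F)) : g⁻¹ 0 0 = g 1 1 ∧ g⁻¹ 0 1 = -g 0 1 ∧ g⁻¹ 1 0 = -g 1 0 ∧ g⁻¹ 1 1 = g 0 0 := by
  simp [adjugate_fin_two]

@[simp] theorem uu00 (s : F) : uu s 0 0 = 1 := rfl
@[simp] theorem uu01 (s : F) : uu s 0 1 = s := rfl
@[simp] theorem uu10 (s : F) : uu s 1 0 = 0 := rfl
@[simp] theorem uu11 (s : F) : uu s 1 1 = 1 := rfl
@[simp] theorem ww00 : (ww : SL(2, F)) 0 0 = 0 := rfl
@[simp] theorem ww01 : (ww : SL(2, F)) 0 1 = 1 := rfl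
@[simp] theorem ww10 : (ww : SL(2, F)) 1 0 = -1 := rfl
@[simp] theorem ww11 : (ww : SL(2, F)) 1 1 = 0 := rfl
@[simp] theorem hh00 (a : Fˣ) : hh a 0 0 = a := rfl
@[simp] theorem hh01 (a : Fˣ) : hh a 0 1 = 0 := rfl
@[simp] theorem hh10 (a : Fˣ) : hh a 1 0 = 0 := rfl
@[simp] theorem hh11 (a : Fˣ) : hh a 1 1 = (a⁻¹ : Fˣ) := rfl
@[simp] theorem xx00 : (xx : SL(2, F)) 0 0 = 0 := rfl
@[simp] theorem xx01 : (xx : SL(2, F)) 0 1 = -1 := rfl
@[simp] theorem xx10 : (xx : SL(2, F)) 1 0 = 1 := rfl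
@[simp] theorem xx11 : (xx : SL(2, F)) 1 1 = -1 := rfl

theorem uu_add (s t : F) : uu (s + t) = uu s * uu t := by
  apply sl_ext <;> simp [sl_mul, add_comm]

theorem uu_zero : uu (0 : F) = 1 := by
  apply sl_ext <;> simp

theorem uu_pow (s : F) (n : ℕ) : uu s ^ n = uu (n * s) := by
  induction n with
  | zero => simp [uu_zero]
  | succ n ih => rw [pow_succ, ih, ← uu_add]; push_cast; ring_nf

theorem xx_cube : (xx * xx * xx : SL(2, F)) = 1 := by
  apply sl_ext <;> simp [sl_mul]

theorem xx_ne : (xx : SL(2, F)) ≠ 1 := fun h => by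
  have := congrArg (fun g : SL(2, F) => g 0 0) h
  simp at this

theorem uu_ne : (uu 1 : SL(2, F)) ≠ 1 := fun h => by
  have := congrArg (fun g : SL(2, F) => g 0 1) h
  simp at this

/-- the Borel subgroup -/
def Bor : Subgroup SL(2, F) where
  carrier := {g | g 1 0 = 0}
  one_mem' := by simp
  mul_mem' := by
    intro a b ha hb
    simp only [Set.mem_ofPred_eq] at *
    rw [sl_mul, ha, hb]; ring
  inv_mem' := by
    intro a ha
    simp only [Set.mem_ofPred_eq] at *
    rw [(sl_inv a).2.2.1, ha, neg_zero]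

theorem mem_Bor {g : SL(2, F)} : g ∈ Bor ↔ g 1 0 = 0 := Iff.rfl

theorem bor_det {g : SL(2, F)} (hg : g ∈ Bor) : g 0 0 * g 1 1 = 1 := by
  have := sl_det g
  rw [mem_Bor.1 hg] at this
  linear_combination this

/-- coset representatives of the Borel subgroup -/
def rr : Option F → SL(2, F)
  | none => 1
  | some s => uu s * ww

theorem rr_surj (g : SL(2, F)) : ∃ o, (rr o)⁻¹ * g ∈ Bor := by
  by_cases h : g 1 0 = 0
  · exact ⟨none, by simpa [rr] using mem_Bor.2 h⟩
  · refine ⟨some (g 0 0 / g 1 0), ?_⟩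
    rw [mem_Bor, sl_mul, (sl_inv _).2.2.1, (sl_inv _).2.2.2]
    simp only [rr, sl_mul, uu00, uu01, uu10, uu11, ww00, ww10]
    field_simp
    ring

theorem rr_inj {o o' : Option F} (h : (rr o)⁻¹ * rr o' ∈ Bor) : o = o' := by
  rw [mem_Bor, sl_mul, (sl_inv _).2.2.1, (sl_inv _).2.2.2] at h
  cases o <;> cases o' <;> simp [rr, sl_mul] at h ⊢
  linear_combination h

theorem bor_bij : Function.Bijective (fun x : F × Fˣ => (⟨uu x.1 * hh x.2, by simp [mem_Bor, sl_mul]⟩ : Bor (F := F))) := by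
  constructor
  · rintro ⟨s, a⟩ ⟨t, b⟩ h
    have h1 := congrArg (fun g : Bor (F := F) => (g : SL(2, F)) 0 0) h
    have h2 := congrArg (fun g : Bor (F := F) => (g : SL(2, F)) 0 1) h
    simp [sl_mul] at h1 h2
    have hab : a = b := Units.ext h1
    subst hab
    simpa using h2
  · rintro ⟨g, hg⟩
    have hd := bor_det hg
    have h0 : g 0 0 ≠ 0 := left_ne_zero_of_mul_eq_one hd
    refine ⟨⟨g 0 1 * g 0 0, Units.mk0 _ h0⟩, Subtype.ext ?_⟩
    apply sl_ext <;> simp [sl_mul, mem_Bor.1 hg]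
    · field_simp
    · exact (eq_inv_of_mul_eq_one_right hd).symm

theorem hh_ww (a : Fˣ) : (hh a * ww : SL(2, F)) = ww * hh a⁻¹ := by
  apply sl_ext <;> simp [sl_mul]

end Mat

section Eps
variable {K : Type*} [Field K] {p : ℕ} [Fact p.Prime] [CharP K p]
variable {W : Type*} [AddCommGroup W] [Module K W] (τ : Representation K SL(2, ZMod p) W)

/-- fixed points of a subgroup -/
def fixS (A : Subgroup SL(2, ZMod p)) : Submodule K W where
  carrier := {v | ∀ g ∈ A, τ g v = v}
  zero_mem' := fun g _ => map_zero _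
  add_mem' := fun ha hb g hg => by rw [map_add, ha g hg, hb g hg]
  smul_mem' := fun c v hv g hg => by rw [map_smul, hv g hg]

theorem mem_fixS {A : Subgroup SL(2, ZMod p)} {v : W} : v ∈ fixS τ A ↔ ∀ g ∈ A, τ g v = v := Iff.rfl

/-- the relative trace -/
noncomputable def trB : End K W := ∑ o : Option (ZMod p), τ (rr o)

open Classical in
/-- the Steinberg idempotent -/
noncomputable def eps : End K W := (1 - trB τ) * ∑ b : Bor (F := ZMod p), τ (b.1 * ww)

theorem trB_mem {v : W} (hv : v ∈ fixS τ Bor) : trB τ v ∈ fixS τ ⊤ := by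
  intro g _
  choose f hf using fun o => rr_surj (g * rr o)
  have hinj : Function.Injective f := by
    intro o o' h
    apply rr_inj
    have := Bor.mul_mem (Bor.inv_mem (hf o)) (hf o')
    rw [h] at this
    convert this using 1
    group
  have hb := Finite.injective_iff_bijective.1 hinj
  simp only [trB, LinearMap.sum_apply, map_sum]
  rw [← hb.sum_comp (fun o => τ (rr o) v)]
  refine Finset.sum_congr rfl fun o _ => ?_
  conv_rhs => rw [← hv _ (hf o)]
  rw [← End.mul_apply, ← End.mul_apply, ← map_mul, ← map_mul]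
  congr 2
  group

theorem trB_fix {v : W} (hv : v ∈ fixS τ ⊤) : trB τ v = v := by
  simp only [trB, LinearMap.sum_apply, fun g => hv g (Subgroup.mem_top g), Finset.sum_const, Finset.card_univ,
    Fintype.card_option, ZMod.card]
  rw [← Nat.cast_smul_eq_nsmul K]
  simp

open Classical in
theorem sumB_mem (y : W) : (∑ b : Bor (F := ZMod p), τ (b.1 * ww)) y ∈ fixS τ Bor := by
  intro g hg
  simp only [LinearMap.sum_apply, map_sum]
  rw [← Equiv.sum_comp (Equiv.mulLeft (⟨g, hg⟩ : Bor (F := ZMod p))) (fun b : Bor (F := ZMod p) => τ (b.1 * ww) y)]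
  refine Finset.sum_congr rfl fun b _ => ?_
  rw [← End.mul_apply, ← map_mul, ← mul_assoc]
  rfl

open Classical in
theorem sumB_fix {v : W} (hv : v ∈ fixS τ Bor) : (∑ b : Bor (F := ZMod p), τ (b.1 * ww)) v = v - trB τ v := by
  simp only [LinearMap.sum_apply]
  rw [← bor_bij.sum_comp (fun b : Bor (F := ZMod p) => τ (b.1 * ww) v), Fintype.sum_prod_type]
  have h : ∀ (s : ZMod p) (a : (ZMod p)ˣ), τ (uu s * hh a * ww) v = τ (uu s * ww) v := by
    intro s a
    rw [mul_assoc, hh_ww, ← mul_assoc, map_mul, End.mul_apply, hv _ (by simp [mem_Bor])]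
  simp only [h, Finset.sum_const, Finset.card_univ, ZMod.card_units, trB, Fintype.sum_option, rr,
    map_one, LinearMap.add_apply, LinearMap.sum_apply, End.one_apply]
  have hp : ((p - 1 : ℕ) : K) = -1 := by
    rw [Nat.cast_sub (Fact.out : p.Prime).one_le]; simp
  simp only [← Nat.cast_smul_eq_nsmul K, hp, neg_smul, one_smul, Finset.sum_neg_distrib]
  abel

theorem fix_le : fixS τ ⊤ ≤ fixS τ Bor := fun _ hv g _ => hv g (Subgroup.mem_top g)

theorem eps_range : LinearMap.range (eps τ) = fixS τ Bor ⊓ LinearMap.ker (trB τ) := by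
  ext v
  constructor
  · rintro ⟨y, rfl⟩
    have h1 := sumB_mem τ y
    have h2 := trB_mem τ h1
    simp only [eps, End.mul_apply, LinearMap.sub_apply, End.one_apply]
    exact ⟨sub_mem h1 (fix_le τ h2), LinearMap.mem_ker.2 (by rw [map_sub, trB_fix τ h2, sub_self])⟩
  · rintro ⟨h1, h2⟩
    have h3 : trB τ v = 0 := h2
    exact ⟨v, by simp only [eps, End.mul_apply, sumB_fix τ h1, h3, sub_zero, LinearMap.sub_apply, End.one_apply]⟩

theorem eps_idem (y : W) : eps τ (eps τ y) = eps τ y := by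
  obtain ⟨h1, h2⟩ : eps τ y ∈ fixS τ Bor ⊓ LinearMap.ker (trB τ) := eps_range τ ▸ ⟨y, rfl⟩
  have h3 : trB τ (eps τ y) = 0 := h2
  generalize eps τ y = v at h1 h3
  simp only [eps, End.mul_apply, sumB_fix τ h1, h3, sub_zero, LinearMap.sub_apply, End.one_apply]

theorem eps_rank [FiniteDimensional K W] :
    finrank K (LinearMap.range (eps τ)) + finrank K (fixS τ ⊤) = finrank K (fixS τ Bor) := by
  let f : fixS τ Bor →ₗ[K] W := trB τ ∘ₗ (fixS τ Bor).subtype
  have h := LinearMap.finrank_range_add_finrank_ker f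
  have h1 : LinearMap.range f = fixS τ ⊤ := by
    ext v
    constructor
    · rintro ⟨y, rfl⟩
      exact trB_mem τ y.2
    · intro hv
      exact ⟨⟨v, fix_le τ hv⟩, trB_fix τ hv⟩
  have h2 : (LinearMap.ker f).map (fixS τ Bor).subtype = LinearMap.range (eps τ) := by
    rw [eps_range]
    ext v
    constructor
    · rintro ⟨y, hy, rfl⟩
      exact ⟨y.2, hy⟩
    · rintro ⟨h1, h2⟩
      exact ⟨⟨v, h1⟩, h2, rfl⟩
  rw [← h2, Submodule.finrank_map_subtype_eq, ← h1]
  omega

theorem eps_map {W' : Type*} [AddCommGroup W'] [Module K W'] (τ' : Representation K SL(2, ZMod p) W')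
    (f : W →ₗ[K] W') (hf : ∀ g v, τ' g (f v) = f (τ g v)) (v : W) : eps τ' (f v) = f (eps τ v) := by
  simp only [eps, trB, End.mul_apply, LinearMap.sub_apply, End.one_apply, LinearMap.sum_apply, map_sub, map_sum, hf]

variable {M : Type*} [AddCommGroup M] [Module K M] [FiniteDimensional K M] (σ : Representation K SL(2, ZMod p) M)

/-- multiplicity of the Steinberg module in `Hom(M, V)` -/
noncomputable def phi {V : Type*} [AddCommGroup V] [Module K V] (ρ : Representation K SL(2, ZMod p) V) : ℕ :=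
  finrank K (LinearMap.range (eps (σ.linHom ρ)))

theorem phi_add {V : Type*} [AddCommGroup V] [Module K V] [FiniteDimensional K V] (ρ : Representation K SL(2, ZMod p) V)
    (U : Submodule K V) (hU : ∀ g, U ≤ U.comap (ρ g)) :
    phi σ ρ = phi σ (ρ.subrepresentation U hU) + phi σ (ρ.quotient U hU) := by
  refine rk_add (LinearMap.llcomp K M U V U.subtype) (LinearMap.llcomp K M V (V ⧸ U) U.mkQ) ?_ ?_ ?_ _ _ _
    (eps_idem _) (eps_map _ _ _ fun g v => rfl) (eps_map _ _ _ fun g v => rfl)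
  · intro a b h
    ext m
    exact LinearMap.congr_fun h m
  · intro c
    obtain ⟨b, hb⟩ := Module.projective_lifting_property U.mkQ c U.mkQ_surjective
    exact ⟨b, hb⟩
  · intro b
    constructor
    · intro h
      refine ⟨b.codRestrict U fun m => ?_, rfl⟩
      have := LinearMap.congr_fun h m
      simpa using this
    · rintro ⟨a, rfl⟩
      ext m
      simp

theorem phi_congr {V V' : Type*} [AddCommGroup V] [Module K V] [AddCommGroup V'] [Module K V'] [FiniteDimensional K V']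
    (ρ : Representation K SL(2, ZMod p) V) (ρ' : Representation K SL(2, ZMod p) V') (e : V ≃ₗ[K] V')
    (he : ∀ g v, ρ' g (e v) = e (ρ g v)) : phi σ ρ' = phi σ ρ := by
  have := rk_add (C := PUnit) (LinearMap.llcomp K M V V' e) 0 ?_ (fun c => ⟨0, rfl⟩) ?_ (eps (σ.linHom ρ))
    (eps (σ.linHom ρ')) 0 (eps_idem _) (eps_map _ _ _ fun g v => ?_) (fun _ => rfl)
  · rw [LinearMap.range_zero, finrank_bot, add_zero] at this
    exact this
  · intro a b h
    ext m
    exact e.injective (LinearMap.congr_fun h m)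
  · intro b
    refine ⟨fun _ => ⟨(e.symm : V' →ₗ[K] V) ∘ₗ b, ?_⟩, fun _ => rfl⟩
    ext m
    simp
  · ext m
    simp [Representation.linHom_apply, he]

theorem mem_fix_hom {V : Type*} [AddCommGroup V] [Module K V] (ρ : Representation K SL(2, ZMod p) V)
    {A : Subgroup SL(2, ZMod p)} {Φ : M →ₗ[K] V} :
    Φ ∈ fixS (σ.linHom ρ) A ↔ ∀ g ∈ A, ∀ m, Φ (σ g m) = ρ g (Φ m) := by
  rw [mem_fixS]
  refine forall₂_congr fun g _ => ⟨fun h m => ?_, fun h => ?_⟩
  · conv_lhs => rw [← h]
    simp only [Representation.linHom_apply, LinearMap.comp_apply]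
    rw [← End.mul_apply (σ g⁻¹), ← map_mul, inv_mul_cancel, map_one, End.one_apply]
  · ext m
    simp only [Representation.linHom_apply, LinearMap.comp_apply]
    rw [← h, ← End.mul_apply (σ g), ← map_mul, mul_inv_cancel, map_one, End.one_apply]

end Eps

end Cfsg.Agent.Fix6
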