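import Cfsg.Agent.Fix6.GK
import Cfsg.Agent.Fix6.Eps

/-! S5720, cross characteristic: `SL₂(p)`, `p ≡ 2 mod 3`, `p ≥ 11`. -/

set_option autoImplicit false
set_option linter.unusedSectionVars false

namespace Cfsg.Agent.Fix6

open Module Matrix
open scoped MatrixGroups

section GLm
variable {F : Type*} [Field F]

theorem gl_ext {g h : GL (Fin 2) F} (h00 : g 0 0 = h 0 0) (h01 : g 0 1 = h 0 1) (h10 : g 1 0 = h 1 0)
    (h11 : g 1 1 = h 1 1) : g = h := by
  ext i j
  fin_cases i <;> fin_cases j <;> assumption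

theorem gl_mul (g h : GL (Fin 2) F) (i j : Fin 2) : (g * h) i j = g i 0 * h 0 j + g i 1 * h 1 j := by
  simp [Matrix.mul_apply, Fin.sum_univ_two]

/-- the anti-automorphism on matrices -/
def tm (A : Matrix (Fin 2) (Fin 2) F) : Matrix (Fin 2) (Fin 2) F := !![A 0 0, -A 1 0; -A 0 1, A 1 1]

theorem tm_mul (A B : Matrix (Fin 2) (Fin 2) F) : tm (A * B) = tm B * tm A := by
  ext i j
  fin_cases i <;> fin_cases j <;> simp [tm, Matrix.mul_apply, Fin.sum_univ_two] <;> ring

theorem tm_one : tm (1 : Matrix (Fin 2) (Fin 2) F) = 1 := by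
  ext i j
  fin_cases i <;> fin_cases j <;> simp [tm]

/-- the anti-automorphism -/
def tg (g : GL (Fin 2) F) : GL (Fin 2) F :=
  ⟨tm g.val, tm g.inv, by rw [← tm_mul, g.inv_val, tm_one], by rw [← tm_mul, g.val_inv, tm_one]⟩

theorem tg_mul (g h : GL (Fin 2) F) : tg (g * h) = tg h * tg g := Units.ext (tm_mul _ _)

theorem tg_tg (g : GL (Fin 2) F) : tg (tg g) = g := by
  apply gl_ext <;> simp [tg, tm]

/-- the element of order three in `GL₂` -/
def xg : GL (Fin 2) F := SpecialLinearGroup.toGL xx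

theorem xg_cube : (xg * xg * xg : GL (Fin 2) F) = 1 := by
  rw [xg, ← map_mul, ← map_mul, xx_cube, map_one]

@[simp] theorem toGL_app (g : SL(2, F)) (i j : Fin 2) : (SpecialLinearGroup.toGL g) i j = g i j := rfl

/-- the non-split torus -/
def CC : Subgroup (GL (Fin 2) F) := Subgroup.centralizer {xg}

theorem mem_CC {g : GL (Fin 2) F} : g ∈ CC ↔ g 0 1 = -g 1 0 ∧ g 1 1 = g 0 0 - g 1 0 := by
  rw [CC, Subgroup.mem_centralizer_singleton_iff]
  constructor
  · intro h
    have h0 := congrArg (fun g : GL (Fin 2) F => g 0 0) h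
    have h1 := congrArg (fun g : GL (Fin 2) F => g 1 0) h
    simp only [gl_mul, xg, toGL_app, xx00, xx01, xx10, xx11] at h0 h1
    exact ⟨by linear_combination h0, by linear_combination h1⟩
  · rintro ⟨h0, h1⟩
    apply gl_ext <;> simp only [gl_mul, xg, toGL_app, xx00, xx01, xx10, xx11, h0, h1] <;> ring

theorem xg_mem : (xg : GL (Fin 2) F) ∈ CC := Subgroup.mem_centralizer_singleton_iff.2 rfl

/-- diagonal matrices `diag(d,1)` -/
def tt (d : Fˣ) : GL (Fin 2) F := GeneralLinearGroup.mkOfDetNeZero !![(d : F), 0; 0, 1] (by simp [det_fin_two])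

theorem tt_det (d : Fˣ) : GeneralLinearGroup.det (tt d) = d := Units.ext (by simp [tt, det_fin_two])

theorem tt_uu (d : Fˣ) : tt d * SpecialLinearGroup.toGL (uu 1) = SpecialLinearGroup.toGL (uu (d : F)) * tt d := by
  apply gl_ext <;> simp [gl_mul, tt]

/-- the cocycle of the coinduced module -/
def cs (d : Fˣ) (g : GL (Fin 2) F) : SL(2, F) :=
  ⟨(tt d * g * (tt (d * GeneralLinearGroup.det g))⁻¹ : GL (Fin 2) F), by
    rw [← GeneralLinearGroup.val_det_apply, map_mul, map_mul, map_inv, tt_det, tt_det, mul_inv_cancel, Units.val_one]⟩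

theorem cs_toGL (d : Fˣ) (g : GL (Fin 2) F) :
    SpecialLinearGroup.toGL (cs d g) = tt d * g * (tt (d * GeneralLinearGroup.det g))⁻¹ := Units.ext rfl

theorem cs_mul (d : Fˣ) (g h : GL (Fin 2) F) : cs d (g * h) = cs d g * cs (d * GeneralLinearGroup.det g) h := by
  apply SpecialLinearGroup.toGL_injective
  rw [map_mul, cs_toGL, cs_toGL, cs_toGL, map_mul, mul_assoc d]
  group

theorem det_toGL (g : SL(2, F)) : GeneralLinearGroup.det (SpecialLinearGroup.toGL g) = 1 := Units.ext g.2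

theorem neg_toGL : SpecialLinearGroup.toGL (ww * ww : SL(2, F)) = -1 := by
  apply gl_ext <;> simp [Matrix.mul_apply, Fin.sum_univ_two]

theorem pow_mod3 {R : Type*} [Monoid R] {t : R} (h : t ^ 3 = 1) {n : ℕ} (hn : n % 3 = 2) : t ^ n = t ^ 2 := by
  rw [← Nat.div_add_mod n 3, hn, pow_add, pow_mul, h, one_pow, one_mul]

end GLm

section Tor
variable {p : ℕ} [Fact p.Prime]

theorem noroot (hp3 : p % 3 = 2) (t : ZMod p) : t ^ 2 + t + 1 ≠ 0 := by
  intro h
  have h3 : t ^ 3 = 1 := by linear_combination (t - 1) * h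
  have h1 := ZMod.pow_card t
  rw [pow_mod3 h3 hp3] at h1
  have h4 : ((3 : ℕ) : ZMod p) = 0 := by push_cast; linear_combination (2 * t + 1) * h1 - (2 * t - 3) * h
  have := (Nat.prime_dvd_prime_iff_eq Fact.out Nat.prime_three).1 ((ZMod.natCast_eq_zero_iff _ _).1 h4)
  omega

theorem exists_cgen (hp3 : p % 3 = 2) : ∃ c : GL (Fin 2) (ZMod p), (∀ g, ∃ n : ℕ, c ^ n * g = tg g * c ^ n) ∧
    ∃ (y : GL (Fin 2) (ZMod p)) (i : ℕ), (∀ g, y * g = g * y) ∧ c ^ ((p + 1) / 3) = y * xg ^ i := by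
  let Ω := AlgebraicClosure (ZMod p)
  let a : ZMod p →+* Ω := algebraMap _ _
  obtain ⟨ω, hω⟩ := exists_omega Ω
  have hli : ∀ s t : ZMod p, a s + a t * ω = 0 → s = 0 ∧ t = 0 := by
    intro s t h
    by_cases ht : t = 0
    · rw [ht, map_zero, zero_mul, add_zero] at h
      exact ⟨a.injective (h.trans (map_zero a).symm), ht⟩
    · have ht' : a t ≠ 0 := fun h => ht (a.injective (h.trans (map_zero a).symm))
      have : ω = a (-s / t) := by rw [map_div₀, map_neg, eq_div_iff ht']; linear_combination h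
      refine (noroot hp3 (-s / t) (a.injective ?_)).elim
      rw [map_add, map_add, map_pow, ← this, map_one, map_zero, hω]
  let f : CC (F := ZMod p) →* Ω :=
    { toFun := fun c => a (c.1 0 0) + a (c.1 1 0) * ω
      map_one' := by simp
      map_mul' := fun c d => by
        obtain ⟨h1, h2⟩ := mem_CC.1 c.2
        simp only [Subgroup.coe_mul, gl_mul, h1, h2, map_add, map_mul, map_neg, map_sub]
        linear_combination (-(a (c.1 1 0) * a (d.1 1 0))) * hω }
  have hf : ∀ c, f c = a (c.1 0 0) + a (c.1 1 0) * ω := fun _ => rfl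
  have hinj : Function.Injective f := fun c d h => by
    obtain ⟨h1, h2⟩ := hli (c.1 0 0 - d.1 0 0) (c.1 1 0 - d.1 1 0) (by
      rw [hf, hf] at h; rw [map_sub, map_sub]; linear_combination h)
    obtain ⟨c1, c2⟩ := mem_CC.1 c.2
    obtain ⟨d1, d2⟩ := mem_CC.1 d.2
    exact Subtype.ext (gl_ext (sub_eq_zero.1 h1) (by rw [c1, d1, sub_eq_zero.1 h2]) (sub_eq_zero.1 h2)
      (by rw [c2, d2, sub_eq_zero.1 h2, sub_eq_zero.1 h1]))
  have := isCyclic_of_injective_ringHom f hinj
  obtain ⟨c, hc⟩ := IsCyclic.exists_monoid_generator (α := CC (F := ZMod p))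
  refine ⟨c, fun g => ?_, ?_⟩
  · by_cases h : g 0 1 + g 1 0 = 0
    · exact ⟨0, by
        rw [pow_zero, one_mul, mul_one]
        apply gl_ext <;> simp only [tg, tm, of_apply, cons_val', cons_val_zero, cons_val_one, cons_val_fin_one]
        · linear_combination h
        · linear_combination h⟩
    let c' : GL (Fin 2) (ZMod p) := GeneralLinearGroup.mkOfDetNeZero
      !![g 0 0 - g 1 1 - g 1 0, g 0 1 + g 1 0; -(g 0 1 + g 1 0), g 0 0 - g 1 1 + g 0 1] (by
        intro h0
        apply noroot hp3 ((g 0 0 - g 1 1 - g 1 0) / (g 0 1 + g 1 0))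
        rw [det_fin_two_of] at h0
        field_simp
        linear_combination h0)
    obtain ⟨n, hn⟩ := hc ⟨c', mem_CC.2 ⟨by simp [c'], by simp [c']; ring⟩⟩
    refine ⟨n, ?_⟩
    have : (c : GL (Fin 2) (ZMod p)) ^ n = c' := congrArg Subtype.val hn
    rw [this]
    apply gl_ext <;> simp [gl_mul, c', tg, tm] <;> ring
  · have h3 : ω ^ 3 = 1 := by linear_combination (ω - 1) * hω
    have hωp : ω ^ p = ω ^ 2 := pow_mod3 h3 hp3
    let δ := c.1 0 0 ^ 2 - c.1 0 0 * c.1 1 0 + c.1 1 0 ^ 2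
    have h1 : f c ^ (p + 1) = a δ := by
      rw [pow_succ, hf, add_pow_char, mul_pow, ← map_pow, ← map_pow, ZMod.pow_card, ZMod.pow_card, hωp]
      simp only [δ, map_add, map_sub, map_mul, map_pow]
      linear_combination (a (c.1 0 0) * a (c.1 1 0)) * hω + a (c.1 1 0) ^ 2 * h3
    have h2 : (δ ^ ((2 * p - 1) / 3)) ^ 3 = δ := by
      rw [← pow_mul, show (2 * p - 1) / 3 * 3 = p + (p - 2) + 1 by omega, pow_succ, pow_add, ZMod.pow_card, ← pow_succ',
        ← pow_succ, show p - 2 + 1 + 1 = p by omega, ZMod.pow_card]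
    obtain ⟨η, hη⟩ : ∃ η, η ^ 3 = δ := ⟨_, h2⟩
    have h4 : (f c ^ ((p + 1) / 3)) ^ 3 = a η ^ 3 := by
      rw [← pow_mul, show (p + 1) / 3 * 3 = p + 1 by omega, h1, ← hη, map_pow]
    have hx : f ⟨xg, xg_mem⟩ = ω := by simp [hf, xg]
    obtain ⟨i, hi, h5⟩ : ∃ i ≤ 3, f c ^ ((p + 1) / 3) * ω ^ (3 - i) = a η := by
      generalize f c ^ ((p + 1) / 3) = z at h4
      have : (z - a η) * ((z * ω - a η) * (z * ω ^ 2 - a η)) = 0 := by
        linear_combination h4 + (z - a η) * z ^ 2 * h3 - (z - a η) * z * a η * hω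
      rcases mul_eq_zero.1 this with h | h
      · exact ⟨3, le_rfl, by linear_combination h⟩
      rcases mul_eq_zero.1 h with h | h
      · exact ⟨2, by omega, by linear_combination h⟩
      · exact ⟨1, by omega, by linear_combination h⟩
    let y : CC (F := ZMod p) := c ^ ((p + 1) / 3) * ⟨xg, xg_mem⟩ ^ (3 - i)
    have hy : f y = a η := by rw [map_mul, map_pow, map_pow, hx, h5]
    obtain ⟨-, h6⟩ := hli (y.1 0 0 - η) (y.1 1 0) (by rw [hf] at hy; rw [map_sub]; linear_combination hy)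
    obtain ⟨h7, h8⟩ := mem_CC.1 y.2
    refine ⟨y, i, fun g => ?_, ?_⟩
    · apply gl_ext <;> simp only [gl_mul, h7, h8, h6] <;> ring
    · simp only [y, Subgroup.coe_mul, Subgroup.coe_pow]
      rw [mul_assoc, ← pow_add, show 3 - i + i = 3 by omega, pow_three', xg_cube, mul_one]

end Tor

section Main
variable {K : Type*} [Field K] [IsAlgClosed K] {p : ℕ} [Fact p.Prime]
variable {V : Type*} [AddCommGroup V] [Module K V] [FiniteDimensional K V]

theorem gl_low (h2 : (2 : K) ≠ 0) (hpK : (p : K) ≠ 0) [Nontrivial V] (ρ : Representation K (GL (Fin 2) (ZMod p)) V)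
    (hz : ∀ v, ρ (-1) v = -v) : p - 1 ≤ finrank K V := by
  classical
  let U : ZMod p → End K V := fun s => ρ (SpecialLinearGroup.toGL (uu s))
  have hU : ∀ n : ℕ, U 1 ^ n = U n := fun n => by simp only [U]; rw [← map_pow, ← map_pow, uu_pow, mul_one]
  have hUp : U 1 ^ p = 1 := by rw [hU]; simp [U, uu_zero]
  have hne : LinearMap.range (U 1 - 1) ≠ ⊥ := by
    rw [Ne, LinearMap.range_eq_bot, sub_eq_zero]
    intro h
    let W := ρ (SpecialLinearGroup.toGL ww)
    have h1 : W * W = ρ (-1) := by rw [← map_mul, ← map_mul, neg_toGL]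
    have h3 : W * W * W = 1 := by
      have : (uu 1 * ww) * (uu 1 * ww) * (uu 1 * ww) = (1 : SL(2, ZMod p)) := by apply sl_ext <;> simp [sl_mul]
      have := congrArg (fun g => ρ (SpecialLinearGroup.toGL g)) this
      simp only [map_mul, map_one] at this
      rwa [show ρ (SpecialLinearGroup.toGL (uu 1)) = 1 from h, one_mul] at this
    have h4 : ρ (-1) * ρ (-1) * ρ (-1) = 1 := by
      rw [← h1, show W * W * (W * W) * (W * W) = W * W * W * (W * W * W) by simp only [mul_assoc], h3, one_mul]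
    obtain ⟨v, hv⟩ := exists_ne (0 : V)
    have := LinearMap.congr_fun h4 v
    simp only [End.mul_apply, hz, neg_neg, End.one_apply] at this
    apply hv
    rw [← smul_right_inj h2, two_smul, smul_zero]
    nth_rewrite 1 [← this]
    exact neg_add_cancel v
  have hi : ∀ v ∈ LinearMap.range (U 1 - 1), U 1 v ∈ LinearMap.range (U 1 - 1) := by
    rintro _ ⟨w, rfl⟩
    exact ⟨U 1 w, by simp⟩
  have := Submodule.nontrivial_iff_ne_bot.2 hne
  obtain ⟨ζ, hζ⟩ := End.exists_eigenvalue ((U 1).restrict hi)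
  obtain ⟨⟨v, w, hw⟩, hv1⟩ := hζ.exists_hasEigenvector
  have h0 : v ≠ 0 := fun h => hv1.2 (Subtype.ext h)
  have h1 : U 1 v = ζ • v := congrArg Subtype.val hv1.apply_eq_smul
  have h3 : ∀ n : ℕ, (U 1 ^ n) v = ζ ^ n • v := by
    intro n
    induction n with
    | zero => simp
    | succ n ih => rw [pow_succ, End.mul_apply, h1, map_smul, ih, smul_smul, pow_succ']
  have hζ1 : ζ ≠ 1 := by
    rintro rfl
    have := LinearMap.congr_fun (geom_sum_mul (U 1) p) w
    rw [hUp, sub_self, End.mul_apply, hw] at this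
    simp only [LinearMap.sum_apply, h3, one_pow, one_smul, Finset.sum_const, Finset.card_range, LinearMap.zero_apply] at this
    rw [← Nat.cast_smul_eq_nsmul K] at this
    exact h0 ((smul_eq_zero.1 this).resolve_left hpK)
  have hζp : ζ ^ p = 1 := by
    have := h3 p
    rw [hUp, End.one_apply] at this
    exact (smul_left_injective K h0 (show (1 : K) • v = _ by rw [one_smul]; exact this)).symm
  have hpr : IsPrimitiveRoot ζ p := orderOf_eq_prime hζp hζ1 ▸ IsPrimitiveRoot.orderOf ζ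
  have hli := End.eigenvectors_linearIndependent' (U 1) (fun d : (ZMod p)ˣ => ζ ^ (d : ZMod p).val)
    (fun a b hab => Units.ext (ZMod.val_injective p (hpr.pow_inj (ZMod.val_lt _) (ZMod.val_lt _) hab)))
    (fun d => ρ (tt d)⁻¹ v) fun d => ⟨End.mem_eigenspace_iff.2 (by
      have e : SpecialLinearGroup.toGL (uu 1) * (tt d)⁻¹ = (tt d)⁻¹ * SpecialLinearGroup.toGL (uu (d : ZMod p)) := by
        rw [eq_inv_mul_iff_mul_eq, ← mul_assoc, tt_uu, mul_inv_cancel_right]
      have e2 := h3 (d : ZMod p).val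
      rw [hU, ZMod.natCast_zmod_val] at e2
      rw [← End.mul_apply, ← map_mul, e, map_mul, End.mul_apply, ← map_smul, ← e2]), fun h => h0 (by
      have := congrArg (ρ (tt d)) h
      rwa [← End.mul_apply, ← map_mul, mul_inv_cancel, map_one, End.one_apply, map_zero] at this)⟩
  have := hli.fintype_card_le_finrank
  rwa [ZMod.card_units] at this

theorem gl_up (hp3 : p % 3 = 2) [Nontrivial V] (ρ : Representation K (GL (Fin 2) (ZMod p)) V) (hI : Irr ρ) (ω : K) :
    kd (ρ xg - algebraMap K (End K V) ω) ≤ (p + 1) / 3 := by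
  obtain ⟨c, hc, y, i, hy, hcy⟩ := exists_cgen hp3
  obtain ⟨γ, hγ⟩ := schur hI (ρ y) fun g v => by rw [← End.mul_apply, ← map_mul, hy, map_mul, End.mul_apply]
  have h1 := kd_aeval (ρ c) (gk hI c tg tg_mul (fun g => ⟨_, tg_tg g⟩) hc)
    (Polynomial.X ^ ((p + 1) / 3) - Polynomial.C (γ * ω ^ i)) (Polynomial.X_pow_sub_C_ne_zero (by omega) _)
  rw [Polynomial.natDegree_X_pow_sub_C] at h1
  refine le_trans (Submodule.finrank_mono fun v hv => ?_) h1
  rw [map_sub, map_pow, Polynomial.aeval_X, Polynomial.aeval_C, mem_ker_sub, ← map_pow, hcy, map_mul, End.mul_apply, hγ,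
    mul_smul, map_pow]
  congr 1
  clear hcy h1
  induction i with
  | zero => simp
  | succ n ih => rw [pow_succ, End.mul_apply, mem_ker_sub.1 hv, map_smul, ih, smul_smul, pow_succ']

theorem gl_all (hp : 11 ≤ p) (hp3 : p % 3 = 2) (h2 : (2 : K) ≠ 0) (h3 : (3 : K) ≠ 0) (hpK : (p : K) ≠ 0)
    (ρ : Representation K (GL (Fin 2) (ZMod p)) V) : (∀ v, ρ (-1) v = -v) → finrank K V ≤ 5 * kd (ρ xg - 1) := by
  refine rep_induct (fun V _ _ _ ρ => (∀ v, ρ (-1) v = -v) → finrank K V ≤ 5 * kd (ρ xg - 1)) ?_ ?_ ?_ V ρ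
  · intro V _ _ _ ρ h _
    omega
  · intro V _ _ _ ρ _ hI hz
    obtain ⟨ω, hω⟩ := exists_omega K
    have a1 := gl_low h2 hpK ρ hz
    have a2 := gl_up hp3 ρ hI ω
    have a3 := gl_up hp3 ρ hI (ω ^ 2)
    have a4 := kd_cube (ρ xg) (by rw [← map_mul, ← map_mul, xg_cube, map_one]) hω
    omega
  · intro V _ _ _ ρ U hU h1 h4 hz
    have a1 := h1 fun v => Subtype.ext (hz v)
    have a2 := h4 fun v => by
      obtain ⟨v, rfl⟩ := U.mkQ_surjective v
      exact congrArg U.mkQ (hz v)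
    have a3 := fix3_add h3 ρ U hU xg xg_cube
    have := Submodule.finrank_quotient_add_finrank U
    omega

/-- the coinduced module -/
def coind (ρ : Representation K SL(2, ZMod p) V) : Representation K (GL (Fin 2) (ZMod p)) ((ZMod p)ˣ → V) where
  toFun g := LinearMap.pi fun d => ρ (cs d g) ∘ₗ LinearMap.proj (d * GeneralLinearGroup.det g)
  map_one' := by
    refine LinearMap.ext fun f => funext fun d => ?_
    have : cs d 1 = 1 := SpecialLinearGroup.toGL_injective (by rw [cs_toGL]; simp)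
    simp [this]
  map_mul' g h := by
    refine LinearMap.ext fun f => funext fun d => ?_
    simp [cs_mul, mul_assoc]

theorem coind_apply (ρ : Representation K SL(2, ZMod p) V) (g : SL(2, ZMod p)) (f : (ZMod p)ˣ → V) (d : (ZMod p)ˣ) :
    coind ρ (SpecialLinearGroup.toGL g) f d = ρ (cs d (SpecialLinearGroup.toGL g)) (f d) := by
  show ρ _ (f (d * _)) = _
  rw [det_toGL, mul_one]

theorem coind_fix (ρ : Representation K SL(2, ZMod p) V) :
    kd (coind ρ xg - 1) ≤ ∑ d : (ZMod p)ˣ, kd (ρ (cs d xg) - 1) := by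
  let j : LinearMap.ker (coind ρ xg - 1) →ₗ[K] ∀ d : (ZMod p)ˣ, LinearMap.ker (ρ (cs d xg) - 1) :=
    LinearMap.pi fun d => (LinearMap.proj d ∘ₗ Submodule.subtype _).codRestrict _ fun f =>
      sub_eq_zero.2 ((coind_apply ρ xx f.1 d).symm.trans
        (congrFun (sub_eq_zero.1 (show coind ρ xg f - f = 0 from f.2)) d))
  have a2 := LinearMap.finrank_le_finrank_of_injective (f := j) fun f g h =>
    Subtype.ext (funext fun d => congrArg (fun y => (y d : V)) h)
  rwa [Module.finrank_pi_fintype] at a2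

theorem odd_case (hp : 11 ≤ p) (hp3 : p % 3 = 2) (h2 : (2 : K) ≠ 0) (h3 : (3 : K) ≠ 0) (hpK : (p : K) ≠ 0)
    (ρ : Representation K SL(2, ZMod p) V) (hz : ∀ v, ρ (ww * ww) v = -v) :
    (p - 1) * finrank K V ≤ 5 * ∑ d : (ZMod p)ˣ, kd (ρ (cs d xg) - 1) := by
  have a1 := gl_all hp hp3 h2 h3 hpK (coind ρ) fun f => funext fun d => by
    have : cs d (SpecialLinearGroup.toGL (ww * ww)) = ww * ww := SpecialLinearGroup.toGL_injective (by
      rw [cs_toGL, det_toGL, neg_toGL]; simp)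
    rw [← neg_toGL, coind_apply, this]
    exact hz _
  rw [Module.finrank_pi_fintype, Finset.sum_const, Finset.card_univ, ZMod.card_units, smul_eq_mul] at a1
  have := coind_fix ρ
  omega

theorem sub_kd {G : Type*} [Group G] (ρ : Representation K G V) (U : Submodule K V) (hi : ∀ g, U ≤ U.comap (ρ g)) (g : G) :
    kd (ρ.subrepresentation U hi g - 1) ≤ kd (ρ g - 1) := by
  rw [kd, ← Submodule.finrank_map_subtype_eq]
  apply Submodule.finrank_mono
  rintro _ ⟨v, hv, rfl⟩
  exact congrArg Subtype.val (show (ρ.subrepresentation U hi g - 1) v = 0 from hv)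

end Main

theorem cross {K V : Type*} [Field K] [IsAlgClosed K] [AddCommGroup V] [Module K V] [FiniteDimensional K V]
    (p : ℕ) [Fact p.Prime] (hp : 11 ≤ p) (hp3 : p % 3 = 2) (h2 : (2 : K) ≠ 0) (h3 : (3 : K) ≠ 0) (hpK : (p : K) ≠ 0)
    (ρ : Representation K SL(2, ZMod p) V) : ¬ Small ρ := by
  classical
  intro hs
  let z : SL(2, ZMod p) := ww * ww
  have hzc : ∀ g, z * g = g * z := fun g => by apply sl_ext <;> simp [z, sl_mul]
  have hz1 : z ≠ 1 := fun h => by
    have h1 := congrArg (fun g : SL(2, ZMod p) => g 0 0) h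
    simp only [z, sl_mul, ww00, ww01, ww10] at h1
    have h4 : ((2 : ℕ) : ZMod p) = 0 := by
      push_cast
      rw [show (1 : SL(2, ZMod p)) 0 0 = 1 from rfl] at h1
      linear_combination -h1
    have := Nat.le_of_dvd (by norm_num) ((ZMod.natCast_eq_zero_iff _ _).1 h4)
    omega
  let U := LinearMap.ker (ρ z + 1)
  have hU : ∀ v, v ∈ U ↔ ρ z v = -v := fun v => by simp [U, add_eq_zero_iff_eq_neg]
  have hi : ∀ g, U ≤ U.comap (ρ g) := fun g v hv => by
    rw [Submodule.mem_comap, hU, ← End.mul_apply, ← map_mul, hzc, map_mul, End.mul_apply, (hU v).1 hv, map_neg]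
  have a1 := odd_case hp hp3 h2 h3 hpK (ρ.subrepresentation U hi) fun v => Subtype.ext ((hU _).1 v.2)
  have a2 : ∑ d : (ZMod p)ˣ, kd (ρ.subrepresentation U hi (cs d xg) - 1) ≤ ∑ d : (ZMod p)ˣ, kd (ρ (cs d xg) - 1) :=
    Finset.sum_le_sum fun d _ => sub_kd ρ U hi _
  have a3 : ∑ d : (ZMod p)ˣ, 6 * kd (ρ (cs d xg) - 1) ≤ ∑ _d : (ZMod p)ˣ, (finrank K V - 1) :=
    Finset.sum_le_sum fun d _ => by
      have := hs (cs d xg) fun h => by
        have h1 := cs_toGL d xg
        rw [h, map_one, xg, det_toGL, mul_one, eq_mul_inv_iff_mul_eq, one_mul, eq_comm, mul_eq_left] at h1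
        exact xx_ne (SpecialLinearGroup.toGL_injective (h1.trans (map_one _).symm))
      unfold kd
      omega
  rw [← Finset.mul_sum, Finset.sum_const, Finset.card_univ, ZMod.card_units, smul_eq_mul] at a3
  have a4 := kd_mul_le (ρ z - 1) (ρ z + 1)
  have hzz : (ρ z - 1) * (ρ z + 1) = 0 := by
    have : ρ z * ρ z = 1 := by
      rw [← map_mul, show z * z = 1 by apply sl_ext <;> simp [z, sl_mul], map_one]
    rw [sub_mul, mul_add, this, mul_one, one_mul, add_comm, sub_self]
  rw [hzz, kd_zero] at a4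
  have a5 := hs z hz1
  have a6 : (p - 1) * (6 * finrank K U) ≤ (p - 1) * (5 * (finrank K V - 1)) := by
    nlinarith
  have a7 := Nat.le_of_mul_le_mul_left a6 (by omega)
  unfold kd at a4
  change _ ≤ _ + finrank K U at a4
  omega

end Cfsg.Agent.Fix6
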