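import Cfsg.Agent.Fix6.Cls

/-! S5720, defining characteristic: `SL₂(p)`, `p ≡ 2 mod 3`, `p ≥ 11`. -/

set_option autoImplicit false
set_option linter.unusedSectionVars false

namespace Cfsg.Agent.Fix6

open Module
open scoped MatrixGroups

theorem kd_congr {K V V' : Type*} [Field K] [AddCommGroup V] [Module K V] [AddCommGroup V'] [Module K V']
    (A : End K V) (A' : End K V') (e : V ≃ₗ[K] V') (he : ∀ v, A' (e v) = e (A v)) :
    finrank K (LinearMap.ker (A' - 1)) = finrank K (LinearMap.ker (A - 1)) := by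
  have : LinearMap.ker (A' - 1) = (LinearMap.ker (A - 1)).map (e : V →ₗ[K] V') := by
    ext w
    obtain ⟨v, rfl⟩ := e.surjective w
    simp [sub_eq_zero, he]
  rw [this, LinearEquiv.finrank_map_eq e]

theorem arith {p k a f2 f4 f5 f7 : ℕ} (hp : 11 ≤ p) (hp3 : p % 3 = 2) (hodd : p % 2 = 1) (hk : k < p)
    (ha : (k + 3 - 2 * k % 3) / 3 ≤ a)
    (u1 : f4 + (if p - 4 = k then 1 else 0) ≤ (if p - 4 ≤ k ∧ (p - 4 + k) % 2 = 0 then 1 else 0) +
      (if p - 1 ≤ p - 4 + k ∧ (p - 4 + k + 1 - p) % 2 = 0 then 1 else 0))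
    (u2 : f7 + (if p - 7 = k then 1 else 0) ≤ (if p - 7 ≤ k ∧ (p - 7 + k) % 2 = 0 then 1 else 0) +
      (if p - 1 ≤ p - 7 + k ∧ (p - 7 + k + 1 - p) % 2 = 0 then 1 else 0))
    (l1 : k % 2 = 1 → k ≠ p - 2 → 1 ≤ f2) (l2 : k % 2 = 0 → 4 ≤ k → k ≠ p - 5 → 1 ≤ f5) :
    k + 1 + 2 * f4 + f7 ≤ 4 * a + 2 * f2 + f5 := by
  obtain ⟨q, rfl⟩ : ∃ q, p = 6 * q + 11 := ⟨(p - 11) / 6, by omega⟩
  have hb : (k % 3 = 0 ∧ k + 3 ≤ 3 * a) ∨ (k % 3 = 1 ∧ k ≤ 3 * a + 1) ∨ (k % 3 = 2 ∧ k + 1 ≤ 3 * a) := by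
    obtain h | h | h : k % 3 = 0 ∨ k % 3 = 1 ∨ k % 3 = 2 := by omega
    · rw [show 2 * k % 3 = 0 by omega] at ha; omega
    · rw [show 2 * k % 3 = 2 by omega] at ha; omega
    · rw [show 2 * k % 3 = 1 by omega] at ha; omega
  clear ha
  rcases Nat.mod_two_eq_zero_or_one k with h | h
  · have e1 : f4 = 0 := by split_ifs at u1 <;> omega
    have e2 : k < 6 → f7 = 0 := fun _ => by split_ifs at u2 <;> omega
    have e3 : k ≤ 6 * q + 4 → f7 ≤ 1 := fun _ => by split_ifs at u2 <;> omega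
    have e4 : f7 ≤ 2 := by split_ifs at u2 <;> omega
    have l3 := l2 h
    clear u1 u2 l1 l2
    omega
  · have e1 : f7 = 0 := by split_ifs at u2 <;> omega
    have e2 : k < 3 → f4 = 0 := fun _ => by split_ifs at u1 <;> omega
    have e3 : k ≤ 6 * q + 7 → f4 ≤ 1 := fun _ => by split_ifs at u1 <;> omega
    have e4 : f4 ≤ 2 := by split_ifs at u1 <;> omega
    have l3 := l1 h
    clear u1 u2 l1 l2
    omega

section
variable {K : Type*} [Field K] [IsAlgClosed K] {p : ℕ} [Fact p.Prime] [CharP K p] (ι : ZMod p →+* K)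

/-- the additive inequality -/
def PD {V : Type*} [AddCommGroup V] [Module K V] [FiniteDimensional K V] (ρ : Representation K SL(2, ZMod p) V) : Prop :=
  finrank K V + 2 * phi (sS ι (p - 4)) ρ + phi (sS ι (p - 7)) ρ ≤
    4 * kd (ρ xx - 1) + 2 * phi (sS ι (p - 2)) ρ + phi (sS ι (p - 5)) ρ

variable {V : Type*} [AddCommGroup V] [Module K V] [FiniteDimensional K V] (ρ : Representation K SL(2, ZMod p) V)

theorem PD_zero (h0 : finrank K V = 0) : PD ι ρ := by
  have h : ∀ j, phi (sS ι j) ρ = 0 := fun j => by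
    have h1 := Submodule.finrank_le (LinearMap.range (eps ((sS ι j).linHom ρ)))
    rw [Module.finrank_linearMap, h0, mul_zero] at h1
    exact Nat.le_zero.1 h1
  rw [PD, h, h, h0]
  exact Nat.zero_le _

theorem PD_irr (hp : 11 ≤ p) (hp3 : p % 3 = 2) [Nontrivial V] (hI : Irr ρ) : PD ι ρ := by
  have hodd : p % 2 = 1 := (Fact.out : p.Prime).eq_two_or_odd.resolve_left (by omega)
  obtain ⟨k, hk, e, he⟩ := classify ι ρ hI
  have h : ∀ j, phi (sS ι j) ρ = phi (sS ι j) (sS ι k) := fun j => (phi_congr _ ρ _ e he).symm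
  have hx : kd (ρ xx - 1) = kd (sS ι k xx - 1) := (kd_congr (ρ xx) _ e (he xx)).symm
  rw [PD, h, h, h, h, hx, e.finrank_eq, S_rank ι hk]
  exact arith hp hp3 hodd hk (fix_x ι (by omega) hk) (phi_up ι (by omega) (by omega) hk)
    (phi_up ι (by omega) (by omega) hk)
    (fun h1 h2 => phi_ge ι (by omega) (by omega) hk (by omega) (by omega) (by omega))
    (fun h1 h2 h3 => phi_ge ι (by omega) (by omega) hk (by omega) (by omega) (by omega))

theorem PD_ext (hp : 11 ≤ p) (U : Submodule K V) (hU : ∀ g, U ≤ U.comap (ρ g))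
    (h1 : PD ι (ρ.subrepresentation U hU)) (h2 : PD ι (ρ.quotient U hU)) : PD ι ρ := by
  have h3 : (3 : K) ≠ 0 := by
    intro h
    have := (CharP.cast_eq_zero_iff K p 3).1 (by exact_mod_cast h)
    have := Nat.le_of_dvd (by norm_num) this
    omega
  have := Submodule.finrank_quotient_add_finrank U
  have a1 := fix3_add h3 ρ U hU xx xx_cube
  have a2 := phi_add (sS ι (p - 2)) ρ U hU
  have a4 := phi_add (sS ι (p - 4)) ρ U hU
  have a5 := phi_add (sS ι (p - 5)) ρ U hU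
  have a7 := phi_add (sS ι (p - 7)) ρ U hU
  unfold PD at *
  omega

theorem defn_ineq (hp : 11 ≤ p) (hp3 : p % 3 = 2) : PD ι ρ :=
  rep_induct (fun _ _ _ _ ρ => PD ι ρ) (fun _ _ _ _ ρ h => PD_zero ι ρ h) (fun _ _ _ _ ρ _ h => PD_irr ι ρ hp hp3 h)
    (fun _ _ _ _ ρ U hU h1 h2 => PD_ext ι ρ hp U hU h1 h2) V ρ

end

theorem defn {K V : Type*} [Field K] [IsAlgClosed K] [AddCommGroup V] [Module K V] [FiniteDimensional K V]
    (p : ℕ) [Fact p.Prime] (hp : 11 ≤ p) (hp3 : p % 3 = 2) [CharP K p]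
    (ρ : Representation K SL(2, ZMod p) V) : ¬ Small ρ := by
  intro hs
  let ι : ZMod p →+* K := ZMod.castHom (dvd_refl p) K
  have h1 := defn_ineq ι ρ hp hp3
  have h2 := phi_le ι ρ (i := p - 4) (by omega)
  have h3 := phi_le ι ρ (i := p - 7) (by omega)
  rw [show p - 4 + 2 = p - 2 by omega, show p - 1 - (p - 2) = 1 by omega] at h2
  rw [show p - 7 + 2 = p - 5 by omega, show p - 1 - (p - 5) = 4 by omega] at h3
  have h4 := Wt_sum ι ρ {1, p - 2, p - 4, 4, p - 5} (by simp only [Finset.mem_insert, Finset.mem_singleton]; omega)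
  have h5 := Wt_sum ι ρ {1, p - 2, p - 4, p - 7} (by simp only [Finset.mem_insert, Finset.mem_singleton]; omega)
  rw [Finset.sum_insert, Finset.sum_insert, Finset.sum_insert, Finset.sum_insert, Finset.sum_singleton] at h4
  rw [Finset.sum_insert, Finset.sum_insert, Finset.sum_insert, Finset.sum_singleton] at h5
  · have a := hs xx xx_ne
    have t := hs (uu 1) uu_ne
    unfold PD kd at *
    omega
  all_goals simp only [Finset.mem_insert, Finset.mem_singleton]; omega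

end Cfsg.Agent.Fix6
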