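import Cfsg.Agent.Fix6.Basic

/-! Schur's lemma, the Gelfand–Kazhdan trick and kernels of polynomials in an operator. -/

set_option autoImplicit false
set_option linter.unusedSectionVars false

namespace Cfsg.Agent.Fix6

open Module Polynomial

variable {K : Type*} [Field K] {V : Type*} [AddCommGroup V] [Module K V] [FiniteDimensional K V]

theorem kd_aeval [IsAlgClosed K] (A : End K V) (hA : ∀ μ : K, kd (A - algebraMap K _ μ) ≤ 1) (q : K[X]) (hq : q ≠ 0) :
    kd (aeval A q) ≤ q.natDegree := by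
  induction hn : q.natDegree generalizing q with
  | zero =>
    rw [eq_C_of_natDegree_eq_zero hn] at hq ⊢
    have h0 : q.coeff 0 ≠ 0 := fun h => hq (by rw [h, map_zero])
    refine (Submodule.finrank_eq_zero.2 ?_).le
    rw [aeval_C, Submodule.eq_bot_iff]
    intro v hv
    exact (smul_eq_zero.1 (show q.coeff 0 • v = 0 from hv)).resolve_left h0
  | succ n ih =>
    obtain ⟨μ, hμ⟩ := IsAlgClosed.exists_root q (by
      rw [degree_eq_natDegree hq, hn]; exact_mod_cast Nat.succ_ne_zero n)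
    obtain ⟨r, rfl⟩ := dvd_iff_isRoot.2 hμ
    have hr : r ≠ 0 := right_ne_zero_of_mul hq
    rw [(monic_X_sub_C μ).natDegree_mul' hr, natDegree_X_sub_C] at hn
    have h1 := ih r hr (by omega)
    have h2 := kd_mul_le (A - algebraMap K _ μ) (aeval A r)
    have h3 := hA μ
    rw [map_mul, map_sub, aeval_X, aeval_C]
    omega

theorem kd_cube (A : End K V) (hA : A * A * A = 1) {ω : K} (hω : ω ^ 2 + ω + 1 = 0) :
    finrank K V ≤ kd (A - 1) + kd (A - algebraMap K _ ω) + kd (A - algebraMap K _ (ω ^ 2)) := by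
  have h : (X - 1) * (X - C ω) * (X - C (ω ^ 2)) = (X * X * X - 1 : K[X]) := by
    have := congrArg C hω
    simp only [map_add, map_pow, map_one, map_zero] at this
    rw [map_pow]
    linear_combination (-X ^ 2 + C ω * X - C ω + 1) * this
  have h1 := congrArg (aeval A) h
  simp only [map_mul, map_sub, aeval_X, aeval_C, map_one, hA, sub_self] at h1
  have h2 := kd_mul_le ((A - 1) * (A - algebraMap K _ ω)) (A - algebraMap K _ (ω ^ 2))
  have h3 := kd_mul_le (A - 1) (A - algebraMap K _ ω)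
  rw [h1, kd_zero] at h2
  omega

theorem exists_omega (K : Type*) [Field K] [IsAlgClosed K] : ∃ ω : K, ω ^ 2 + ω + 1 = 0 := by
  obtain ⟨ω, hω⟩ := IsAlgClosed.exists_root (X ^ 2 + X + 1 : K[X]) (by
    have : (X ^ 2 + X + 1 : K[X]).degree = 2 := by compute_degree!
    rw [this]; decide)
  exact ⟨ω, by simpa using hω⟩

theorem mem_ker_sub {A : End K V} {μ : K} {v : V} : v ∈ LinearMap.ker (A - algebraMap K _ μ) ↔ A v = μ • v := by
  simp [sub_eq_zero, Module.algebraMap_end_apply]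

variable {G : Type*} [Group G] {ρ : Representation K G V}

theorem schur [IsAlgClosed K] [Nontrivial V] (hI : Irr ρ) (S : End K V) (hS : ∀ g v, S (ρ g v) = ρ g (S v)) :
    ∃ s : K, ∀ v, S v = s • v := by
  obtain ⟨s, hs⟩ := End.exists_eigenvalue S
  refine ⟨s, fun v => End.mem_eigenspace_iff.1 ?_⟩
  rw [(hI (S.eigenspace s) fun g w hw => ?_).resolve_left hs]
  · exact Submodule.mem_top
  · rw [Submodule.mem_comap, End.mem_eigenspace_iff, hS, End.mem_eigenspace_iff.1 hw, map_smul]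

theorem span_top (hI : Irr ρ) {v : V} (hv : v ≠ 0) : Submodule.span K (Set.range fun g => ρ g v) = ⊤ := by
  refine (hI _ fun h => Submodule.span_le.2 ?_).resolve_left fun h => hv ?_
  · rintro _ ⟨g, rfl⟩
    exact Submodule.subset_span ⟨h * g, by simp⟩
  · exact (Submodule.eq_bot_iff _).1 h v (Submodule.subset_span ⟨1, by simp⟩)

/-- the Gelfand–Kazhdan trick for a cyclic subgroup -/
theorem gk [IsAlgClosed K] [Finite G] (hI : Irr ρ) (c : G) (τ : G → G) (hτ : ∀ g h, τ (g * h) = τ h * τ g)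
    (hs : Function.Surjective τ) (hc : ∀ g, ∃ n : ℕ, c ^ n * g = τ g * c ^ n) (μ : K) :
    kd (ρ c - algebraMap K _ μ) ≤ 1 := by
  classical
  have := Fintype.ofFinite G
  rw [kd, finrank_le_one_iff]
  by_cases h0 : ∀ w : LinearMap.ker (ρ c - algebraMap K _ μ), w = 0
  · exact ⟨0, fun w => ⟨0, by rw [h0 w, smul_zero]⟩⟩
  push Not at h0
  obtain ⟨⟨v, hv⟩, hv0⟩ := h0
  have hv1 : v ≠ 0 := fun h => hv0 (Subtype.ext h)
  have : Nontrivial V := ⟨v, 0, hv1⟩
  refine ⟨⟨v, hv⟩, fun ⟨v', hv'⟩ => ?_⟩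
  obtain ⟨ℓ, hℓ0, hℓ⟩ := (LinearMap.range (ρ c - algebraMap K _ μ)).exists_le_ker_of_lt_top (lt_top_iff_ne_top.2 fun h =>
    hv1 ((Submodule.eq_bot_iff _).1 (LinearMap.ker_eq_bot_iff_range_eq_top.2 h) v hv))
  have hℓ1 : ∀ w, ℓ (ρ c w) = μ * ℓ w := fun w => by
    have : ℓ _ = 0 := hℓ ⟨w, rfl⟩
    simpa [sub_eq_zero, Module.algebraMap_end_apply] using this
  have hμ : μ ≠ 0 := fun h => hv1 (by
    have h1 := congrArg (ρ c⁻¹) (mem_ker_sub.1 hv)
    rwa [h, zero_smul, map_zero, ← End.mul_apply, ← map_mul, inv_mul_cancel, map_one, End.one_apply] at h1)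
  have key : ∀ w ∈ LinearMap.ker (ρ c - algebraMap K _ μ), ∀ g, ℓ (ρ (τ g) w) = ℓ (ρ g w) := by
    intro w hw g
    obtain ⟨n, hn⟩ := hc g
    have a1 : ∀ (n : ℕ) (u : V), ℓ (ρ (c ^ n) u) = μ ^ n * ℓ u := by
      intro n
      induction n with
      | zero => simp
      | succ n ih => intro u; rw [pow_succ, map_mul, End.mul_apply, ih, hℓ1]; ring
    have a2 : ∀ n : ℕ, ρ (c ^ n) w = μ ^ n • w := by
      intro n
      induction n with
      | zero => simp
      | succ n ih => rw [pow_succ, map_mul, End.mul_apply, mem_ker_sub.1 hw, map_smul, ih, smul_smul, pow_succ']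
    have := congrArg (fun g => ℓ (ρ g w)) hn
    simp only [map_mul, End.mul_apply, a1, a2, map_smul, smul_eq_mul] at this
    exact (mul_left_cancel₀ (pow_ne_zero n hμ) this).symm
  let L : V → (G → K) →ₗ[K] V := fun w => Fintype.linearCombination K fun g => ρ g w
  have hL : ∀ a, L v a = 0 → L v' a = 0 := by
    intro a ha
    let Λ : V →ₗ[K] K := ℓ ∘ₗ ∑ g, a g • ρ (τ g)
    have hΛ : ∀ w ∈ LinearMap.ker (ρ c - algebraMap K _ μ), ∀ h, Λ (ρ (τ h) w) = ℓ (ρ h (L w a)) := by
      intro w hw h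
      simp only [Λ, L, LinearMap.comp_apply, LinearMap.sum_apply, LinearMap.smul_apply, map_sum, map_smul,
        Fintype.linearCombination_apply]
      refine Finset.sum_congr rfl fun g _ => ?_
      rw [← End.mul_apply, ← map_mul, ← hτ, key w hw, map_mul, End.mul_apply]
    have hz : Λ = 0 := by
      rw [← LinearMap.ker_eq_top, eq_top_iff, ← span_top hI hv1, Submodule.span_le]
      rintro _ ⟨g, rfl⟩
      obtain ⟨h, rfl⟩ := hs g
      exact (hΛ v hv h).trans (by rw [ha, map_zero, map_zero])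
    by_contra hne
    apply hℓ0
    rw [← LinearMap.ker_eq_top, eq_top_iff, ← span_top hI hne, Submodule.span_le]
    rintro _ ⟨h, rfl⟩
    exact (hΛ v' hv' h).symm.trans (by rw [hz]; rfl)
  obtain ⟨s, hs'⟩ := (L v).exists_rightInverse_of_surjective
    (by rw [Fintype.range_linearCombination]; exact span_top hI hv1)
  have hS : ∀ g, (L v' ∘ₗ s) (ρ g v) = ρ g v' := by
    intro g
    have e : ∀ w, L w (Pi.single g 1) = ρ g w := fun w => by simp [L]
    have := hL (s (ρ g v) - Pi.single g 1) (by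
      rw [map_sub, e, sub_eq_zero]; exact LinearMap.congr_fun hs' _)
    rwa [map_sub, e, sub_eq_zero] at this
  obtain ⟨t, ht⟩ := schur hI (L v' ∘ₗ s) fun h => by
    have : LinearMap.ker ((L v' ∘ₗ s) ∘ₗ ρ h - ρ h ∘ₗ (L v' ∘ₗ s)) = ⊤ := by
      rw [eq_top_iff, ← span_top hI hv1, Submodule.span_le]
      rintro _ ⟨g, rfl⟩
      show (L v' ∘ₗ s) (ρ h (ρ g v)) - ρ h ((L v' ∘ₗ s) (ρ g v)) = 0
      rw [hS, ← End.mul_apply (ρ h) (ρ g), ← map_mul, hS, map_mul, End.mul_apply, sub_self]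
    intro w
    exact sub_eq_zero.1 (LinearMap.congr_fun (LinearMap.ker_eq_top.1 this) w)
  refine ⟨t, Subtype.ext ?_⟩
  have := hS 1
  rw [map_one, End.one_apply, End.one_apply, ht] at this
  exact this

end Cfsg.Agent.Fix6
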