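import Cfsg.Agent.Fix6.Sym

/-! Bounds for the Steinberg multiplicities in `Hom(S^j, V)` by highest weight vectors. -/

set_option autoImplicit false
set_option linter.unusedSectionVars false

namespace Cfsg.Agent.Fix6

open Module Matrix MvPolynomial
open scoped MatrixGroups

theorem dimle {K H W : Type*} [Field K] [AddCommGroup H] [Module K H] [AddCommGroup W] [Module K W]
    [FiniteDimensional K H] [FiniteDimensional K W] (U U' : Submodule K H) (f : H →ₗ[K] W) (T : Submodule K W)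
    (h1 : ∀ u ∈ U, f u ∈ T) (h2 : ∀ u ∈ U, f u = 0 → u ∈ U') : finrank K U ≤ finrank K U' + finrank K T := by
  have h := LinearMap.finrank_range_add_finrank_ker (f ∘ₗ U.subtype)
  have a : finrank K (LinearMap.range (f ∘ₗ U.subtype)) ≤ finrank K T := by
    apply Submodule.finrank_mono
    rintro _ ⟨u, rfl⟩
    exact h1 u u.2
  have b : finrank K (LinearMap.ker (f ∘ₗ U.subtype)) ≤ finrank K U' := by
    rw [← Submodule.finrank_map_subtype_eq]
    apply Submodule.finrank_mono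
    rintro _ ⟨u, hu, rfl⟩
    exact h2 u u.2 hu
  omega

theorem sum_finrank_le {K V I : Type*} [Field K] [AddCommGroup V] [Module K V] [FiniteDimensional K V]
    (W : I → Submodule K V) (h : iSupIndep W) (T : Finset I) (U : Submodule K V) (hU : ∀ l, W l ≤ U) :
    ∑ l ∈ T, finrank K (W l) ≤ finrank K U := by
  classical
  have : ∑ l ∈ T, finrank K (W l) = finrank K (⨆ l ∈ T, W l : Submodule K V) := by
    induction T using Finset.induction_on with
    | empty => rw [show (⨆ l ∈ (∅ : Finset I), W l) = ⊥ by simp, finrank_bot, Finset.sum_empty]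
    | insert a T ha ih =>
      have hd : Disjoint (W a) (⨆ l ∈ T, W l) := h.disjoint_biSup (y := (T : Set I)) (by simpa using ha)
      rw [Finset.sum_insert ha, Finset.iSup_insert, ih, ← Submodule.finrank_sup_add_finrank_inf_eq,
        hd.eq_bot, finrank_bot, add_zero]
  rw [this]
  exact Submodule.finrank_mono (iSup₂_le fun l _ => hU l)

variable {K : Type*} [Field K] {p : ℕ} [Fact p.Prime] [CharP K p] (ι : ZMod p →+* K)

section Gen
variable {V : Type*} [AddCommGroup V] [Module K V] [FiniteDimensional K V] (ρ : Representation K SL(2, ZMod p) V)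

/-- highest weight vectors of weight `l` -/
def Wt (l : ℕ) : Submodule K V where
  carrier := {v | ∀ g ∈ Bor, ρ g v = ι (g 0 0) ^ l • v}
  zero_mem' := fun g _ => by rw [map_zero, smul_zero]
  add_mem' := fun ha hb g hg => by rw [map_add, ha g hg, hb g hg, smul_add]
  smul_mem' := fun c v hv g hg => by rw [map_smul, hv g hg, smul_comm]

/-- homomorphisms from forms of degree `j` commuting with a subgroup -/
noncomputable abbrev HA (A : Subgroup SL(2, ZMod p)) (j : ℕ) := fixS ((sS ι j).linHom ρ) A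

theorem phi_eq (j : ℕ) : phi (sS ι j) ρ + finrank K (HA ι ρ ⊤ j) = finrank K (HA ι ρ Bor j) :=
  eps_rank ((sS ι j).linHom ρ)

theorem one_le_HA {A : Subgroup SL(2, ZMod p)} {j : ℕ} {Φ : S K j →ₗ[K] V} (h : Φ ∈ HA ι ρ A j) (h0 : Φ ≠ 0) :
    1 ≤ finrank K (HA ι ρ A j) := by
  rw [Nat.one_le_iff_ne_zero, Ne, Submodule.finrank_eq_zero, Submodule.eq_bot_iff]
  exact fun h' => h0 (h' Φ h)

theorem S_coef' {j : ℕ} (f : S K j) : ∃ c : Fin (j + 1) → K, f = ∑ m, c m • mS K j m := by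
  obtain ⟨c, hc⟩ := S_coef f.2
  exact ⟨c, Subtype.ext (by simp [mS, hc])⟩

include ι in
theorem mS_li {j : ℕ} (hj : j < p) : LinearIndependent K (mS K j) :=
  LinearIndependent.of_comp (S K j).subtype (mon_li ι hj)

theorem exists_gen : ∃ γ : (ZMod p)ˣ, ∀ a b : ℕ, ι γ ^ a = ι γ ^ b → a ≡ b [MOD p - 1] := by
  obtain ⟨γ, hγ⟩ := IsCyclic.exists_ofOrder_eq_natCard (α := (ZMod p)ˣ)
  refine ⟨γ, fun a b h => ?_⟩
  rw [← map_pow, ← map_pow] at h
  have h1 : γ ^ a = γ ^ b := Units.ext (by simpa using ι.injective h)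
  rwa [pow_eq_pow_iff_modEq, hγ, Nat.card_eq_fintype_card, ZMod.card_units] at h1

theorem Wt_sum (T : Finset ℕ) (hT : ∀ l ∈ T, l < p - 1) : ∑ l ∈ T, finrank K (Wt ι ρ l) ≤ kd (ρ (uu 1) - 1) := by
  obtain ⟨γ, hγ⟩ := exists_gen ι
  rw [← Finset.sum_coe_sort]
  refine sum_finrank_le (fun l : T => Wt ι ρ l) ?_ _ _ fun l v hv => ?_
  · refine ((End.eigenspaces_iSupIndep (ρ (hh γ))).comp (f := fun l : T => ι γ ^ (l : ℕ)) fun a b hab => ?_).mono
      fun l v hv => ?_
    · exact Subtype.ext (Nat.ModEq.eq_of_lt_of_lt (hγ _ _ hab) (hT _ a.2) (hT _ b.2))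
    · exact End.mem_eigenspace_iff.2 (hv (hh γ) (by simp [mem_Bor]))
  · have := hv (uu 1) (by simp [mem_Bor])
    simpa [sub_eq_zero] using this

theorem ev_mem {A : Subgroup SL(2, ZMod p)} (hA : Bor ≤ A) {j : ℕ} {Φ : S K j →ₗ[K] V} (h : Φ ∈ HA ι ρ A j) :
    Φ (mS K j 0) ∈ Wt ι ρ j := fun g hg => by
  rw [← (mem_fix_hom _ _).1 h g (hA hg), sS_X ι hg, map_smul]

theorem G_le {j : ℕ} (hj : j < p) : finrank K (HA ι ρ ⊤ j) ≤ finrank K (Wt ι ρ j) := by
  have := dimle (HA ι ρ ⊤ j) ⊥ (LinearMap.applyₗ (mS K j 0)) (Wt ι ρ j) (fun Φ h => ev_mem ι ρ le_top h)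
    fun Φ h h0 => genX ι hj fun g => by
      rw [(mem_fix_hom _ _).1 h g (Subgroup.mem_top g)]
      exact (congrArg (ρ g) h0).trans (map_zero _)
  rwa [finrank_bot, zero_add] at this

theorem cast_ne {m : ℕ} (h0 : 0 < m) (h : m < p) : (m : K) ≠ 0 := by
  rw [Ne, CharP.cast_eq_zero_iff K p]
  exact Nat.not_dvd_of_pos_of_lt h0 h

include ι in
theorem exists_theta {i : ℕ} (hi : i + 2 < p) : ∃ θ : S K i →ₗ[K] S K (i + 2),
    (∀ f, dY (θ f : PR K) = X 0 * (f : PR K)) ∧
      ∀ m : Fin (i + 1), mS K (i + 2) m.castSucc.succ = ((m + 1 : ℕ) : K) • θ (mS K i m) := by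
  let b : Basis (Fin (i + 1)) K (S K i) := Basis.span (mon_li ι (j := i) (by omega))
  have hb : ∀ m, b m = mS K i m := fun m => Basis.span_apply _ m
  have hn : ∀ m : Fin (i + 1), ((m + 1 : ℕ) : K) ≠ 0 := fun m => cast_ne (p := p) (by omega) (by omega)
  refine ⟨b.constr K fun m => ((m + 1 : ℕ) : K)⁻¹ • mS K (i + 2) m.castSucc.succ, ?_, fun m => ?_⟩
  · have : dY ∘ₗ (S K (i + 2)).subtype ∘ₗ b.constr K (fun m => ((m + 1 : ℕ) : K)⁻¹ • mS K (i + 2) m.castSucc.succ) -
        LinearMap.mulLeft K (X 0) ∘ₗ (S K i).subtype = 0 := by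
      apply S_ext
      intro m
      rw [LinearMap.sub_apply, LinearMap.comp_apply, LinearMap.comp_apply, ← hb, Basis.constr_basis, hb, map_smul, map_smul]
      show _ • dY (mon K (i + 1 + 1) (m + 1)) - X 0 * mon K i m = 0
      rw [dY_mon, smul_smul, inv_mul_cancel₀ (hn m), one_smul, X0_mon (by omega), sub_self]
    intro f
    exact sub_eq_zero.1 (LinearMap.congr_fun this f)
  · rw [← hb, Basis.constr_basis, smul_smul, mul_inv_cancel₀ (hn m), one_smul]

theorem N_le {i : ℕ} (hi : i + 2 < p) : finrank K (HA ι ρ Bor (i + 2)) ≤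
    finrank K (Wt ι ρ (p - 1 - (i + 2))) + finrank K (HA ι ρ Bor i) + finrank K (Wt ι ρ (i + 2)) := by
  obtain ⟨θ, hθ, hθ'⟩ := exists_theta ι hi
  let e0 : (S K (i + 2) →ₗ[K] V) →ₗ[K] V := LinearMap.applyₗ (mS K (i + 2) 0)
  let eθ : (S K (i + 2) →ₗ[K] V) →ₗ[K] (S K i →ₗ[K] V) := LinearMap.lcomp K V θ
  have h1 := dimle (HA ι ρ Bor (i + 2)) (HA ι ρ Bor (i + 2) ⊓ LinearMap.ker e0) e0 _
    (fun Φ h => ev_mem ι ρ le_rfl h) fun Φ h h0 => ⟨h, h0⟩
  have h2 := dimle (HA ι ρ Bor (i + 2) ⊓ LinearMap.ker e0)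
    (HA ι ρ Bor (i + 2) ⊓ LinearMap.ker e0 ⊓ LinearMap.ker eθ) eθ (HA ι ρ Bor i) (fun Φ h => ?_) fun Φ h h0 => ⟨h, h0⟩
  · have hz : ∀ Φ ∈ HA ι ρ Bor (i + 2) ⊓ LinearMap.ker e0 ⊓ LinearMap.ker eθ, ∀ m : Fin (i + 2),
        Φ (mS K (i + 2) m.castSucc) = 0 := by
      rintro Φ ⟨⟨_, h0⟩, h1⟩ m
      cases m using Fin.cases with
      | zero => exact h0
      | succ m =>
        have : Φ (θ (mS K i m)) = 0 := LinearMap.congr_fun (show eθ Φ = 0 from h1) _
        rw [Fin.castSucc_succ, hθ', map_smul, this, smul_zero]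
    have h3 := dimle (HA ι ρ Bor (i + 2) ⊓ LinearMap.ker e0 ⊓ LinearMap.ker eθ) ⊥
      (LinearMap.applyₗ (mS K (i + 2) (Fin.last _))) (Wt ι ρ (p - 1 - (i + 2))) (fun Φ h g hg => ?_) fun Φ h h0 => ?_
    · rw [finrank_bot] at h3
      omega
    · show ρ g (Φ _) = _ • Φ _
      rw [← (mem_fix_hom _ _).1 h.1.1 g hg, sS_Y, map_sum, Fin.sum_univ_castSucc, Finset.sum_eq_zero, zero_add, map_smul]
      · congr 1
        have hd : ι (g 0 0) * ι (g 1 1) = 1 := by rw [← map_mul, bor_det hg, map_one]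
        have h0 : ι (g 0 0) ≠ 0 := left_ne_zero_of_mul_eq_one hd
        have hp : ι (g 0 0) ^ (p - 1) = 1 := by
          rw [← map_pow, ZMod.pow_card_sub_one_eq_one (fun h => h0 (by rw [h, map_zero])), map_one]
        apply mul_left_cancel₀ (pow_ne_zero (i + 2) h0)
        simp only [Fin.val_last, Nat.sub_self, pow_zero, one_mul, Nat.choose_self, Nat.cast_one, mul_one]
        rw [← mul_pow, hd, one_pow, ← pow_add, show i + 2 + (p - 1 - (i + 2)) = p - 1 by omega, hp]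
      · intro m _
        rw [map_smul, hz Φ h m, smul_zero]
    · refine S_ext fun m => ?_
      cases m using Fin.lastCases with
      | last => exact h0
      | cast m => exact hz Φ h m
  · refine (mem_fix_hom _ _).2 fun g hg f => ?_
    show Φ (θ _) = ρ g (Φ (θ f))
    rw [← (mem_fix_hom _ _).1 h.1 g hg]
    obtain ⟨c, hc⟩ := dY_ker ι hi (sS ι _ g (θ f) - θ (sS ι i g f)).2 (by
      have hA : mp ι g 1 0 = 0 := by simp [mem_Bor.1 hg]
      have := sb_X0pow hA 1 (f : PR K)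
      rw [pow_one, pow_one] at this
      rw [Submodule.coe_sub, map_sub, hθ, sS_val, dY_sb hA, hθ, this, smul_smul, mp_apply, mp_apply, ← map_mul,
        mul_comm (g 1 1), bor_det hg, map_one, one_smul, sS_val, sub_self])
    have e : sS ι _ g (θ f) - θ (sS ι i g f) = c • mS K (i + 2) 0 := Subtype.ext hc
    have h0 : Φ (mS K (i + 2) 0) = 0 := h.2
    have := congrArg Φ e
    rw [map_sub, map_smul, h0, smul_zero, sub_eq_zero] at this
    exact this.symm

theorem phi_le {i : ℕ} (hi : i + 2 < p) : phi (sS ι (i + 2)) ρ ≤ phi (sS ι i) ρ +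
    (finrank K (Wt ι ρ (p - 1 - (i + 2))) + finrank K (Wt ι ρ (i + 2)) + finrank K (Wt ι ρ i)) := by
  have h1 := phi_eq ι ρ (i + 2)
  have h2 := phi_eq ι ρ i
  have h3 := N_le ι ρ hi
  have h4 := G_le ι ρ (j := i) (by omega)
  omega

end Gen

section Val

theorem B_le {j k : ℕ} (hj0 : 0 < j) (hj : j < p - 1) (hk : k < p) : finrank K (HA ι (sS ι k) Bor j) ≤
    (Finset.univ.filter fun m : Fin (k + 1) => 2 * m = k + j ∨ 2 * m + p = k + j + 1).card := by
  classical
  obtain ⟨γ, hγ⟩ := exists_gen ι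
  set T := Finset.univ.filter fun m : Fin (k + 1) => 2 * m = k + j ∨ 2 * m + p = k + j + 1 with hT
  have := dimle (HA ι (sS ι k) Bor j) ⊥ (LinearMap.applyₗ (mS K j (Fin.last _)))
    (Submodule.span K (T.image (mS K k) : Set (S K k))) (fun Φ h => ?_) fun Φ h h0 => genY ι (by omega) fun s => by
      rw [(mem_fix_hom _ _).1 h _ (by simp [mem_Bor])]
      exact (congrArg (sS ι k (uu s)) h0).trans (map_zero _)
  · rw [finrank_bot, zero_add] at this
    exact this.trans ((finrank_span_finset_le_card _).trans Finset.card_image_le)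
  show Φ _ ∈ _
  have h1 := (mem_fix_hom _ _).1 h (hh γ) (by simp [mem_Bor]) (mS K j (Fin.last _))
  have hd : ι γ * ι (γ⁻¹ : (ZMod p)ˣ) = 1 := by rw [← map_mul, Units.mul_inv, map_one]
  have h2 : ∀ (n : ℕ) (m : Fin (n + 1)), sS ι n (hh γ) (mS K n m) =
      (ι γ ^ (n - m) * ι (γ⁻¹ : (ZMod p)ˣ) ^ (m : ℕ)) • mS K n m := by
    intro n m
    apply Subtype.ext
    simp only [sS_val, mS, mon, map_mul, map_pow, sb_X, mp_apply, hh00, hh01, hh10, hh11, map_zero, zero_smul, add_zero,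
      zero_add, smul_pow, Submodule.coe_smul, smul_mul_smul_comm]
  rw [h2, map_smul] at h1
  obtain ⟨c, e⟩ := S_coef' (Φ (mS K j (Fin.last _)))
  rw [e] at h1 ⊢
  refine Submodule.sum_mem _ fun m _ => ?_
  by_cases hm : c m = 0
  · rw [hm, zero_smul]; exact zero_mem _
  refine Submodule.smul_mem _ _ (Submodule.subset_span ?_)
  rw [Finset.mem_coe]
  refine Finset.mem_image_of_mem _ (Finset.mem_filter.2 ⟨Finset.mem_univ _, ?_⟩)
  simp only [map_sum, map_smul, h2, Finset.smul_sum, smul_smul] at h1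
  rw [← sub_eq_zero, ← Finset.sum_sub_distrib] at h1
  simp only [← sub_smul] at h1
  have h3 := Fintype.linearIndependent_iff.1 (mS_li ι hk) _ h1 m
  simp only [Fin.val_last, Nat.sub_self, pow_zero, one_mul] at h3
  have h4 : ι γ ^ (m : ℕ) = ι γ ^ (k - m + j) := by
    have h5 : ι (γ⁻¹ : (ZMod p)ˣ) ^ j = ι γ ^ (k - m) * ι (γ⁻¹ : (ZMod p)ˣ) ^ (m : ℕ) :=
      mul_right_cancel₀ hm (by linear_combination h3)
    have h6 : ι γ ^ j * ι (γ⁻¹ : (ZMod p)ˣ) ^ j = 1 := by rw [← mul_pow, hd, one_pow]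
    have h7 : ι γ ^ (m : ℕ) * ι (γ⁻¹ : (ZMod p)ˣ) ^ (m : ℕ) = 1 := by rw [← mul_pow, hd, one_pow]
    rw [pow_add]
    linear_combination (ι γ ^ j * ι γ ^ (m : ℕ)) * h5 - ι γ ^ (m : ℕ) * h6 + ι γ ^ (k - m) * ι γ ^ j * h7
  obtain ⟨t, ht⟩ := (hγ _ _ h4).dvd
  have hm' := m.2
  have hp : ((p - 1 : ℕ) : ℤ) = p - 1 := by omega
  have hkm : ((k - m + j : ℕ) : ℤ) = k - m + j := by omega
  rw [hp, hkm] at ht
  have t0 : -1 < t := by
    by_contra hc
    have : ((p : ℤ) - 1) * t ≤ ((p : ℤ) - 1) * (-1) := mul_le_mul_of_nonneg_left (by omega) (by omega)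
    omega
  have t1 : t < 2 := by
    by_contra hc
    have : ((p : ℤ) - 1) * 2 ≤ ((p : ℤ) - 1) * t := mul_le_mul_of_nonneg_left (by omega) (by omega)
    omega
  obtain rfl | rfl : t = 0 ∨ t = 1 := by omega
  · left; omega
  · right; omega

theorem mS_ne {k : ℕ} (m : Fin (k + 1)) : mS K k m ≠ 0 := fun h => by
  have := congrArg (fun f : S K k => evp 1 1 (f : PR K)) h
  simp [mS, evp_mon] at this

theorem G_self (k : ℕ) : 1 ≤ finrank K (HA ι (sS ι k) ⊤ k) := by
  exact one_le_HA ι _ (Φ := LinearMap.id) ((mem_fix_hom _ _).2 fun g _ m => rfl)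
    fun h => mS_ne 0 (LinearMap.congr_fun h (mS K k 0))

theorem Wt_bot {j k : ℕ} (hj0 : 0 < j) (hj : j < p - 1) (hk : k < p) (hjk : j ≠ k) : Wt ι (sS ι k) j = ⊥ := by
  obtain ⟨γ, hγ⟩ := exists_gen ι
  rw [Submodule.eq_bot_iff]
  intro f hf
  have e : f = evp 1 0 (f : PR K) • mS K k 0 := by
    apply Subtype.ext
    rw [← sub_eq_zero]
    refine ev_inj ι hk (f - evp 1 0 (f : PR K) • mS K k 0).2 fun s => ?_
    have := congrArg (fun f : S K k => evp 1 0 (f : PR K)) (hf (uu s) (by simp [mem_Bor]))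
    simp only [sS_val, evp_sb, mp_apply, uu00, uu01, uu10, uu11, map_one, one_pow, one_smul, map_zero, mul_one, mul_zero,
      add_zero, one_mul] at this
    simp [this, mS, evp_mon]
  have h1 := hf (hh γ) (by simp [mem_Bor])
  generalize evp 1 0 (f : PR K) = c at e
  subst e
  rw [map_smul, sS_X ι (by simp [mem_Bor]), smul_smul, smul_smul, ← sub_eq_zero, ← sub_smul] at h1
  by_contra hne
  have hc : c ≠ 0 := fun h => hne (by rw [h, zero_smul])
  have h2 : ι γ ^ j = ι γ ^ k := by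
    have := (smul_eq_zero.1 h1).resolve_right (mS_ne 0)
    simp only [hh00] at this
    exact mul_right_cancel₀ hc (by linear_combination -this)
  have h3 := hγ _ _ h2
  rcases Nat.lt_or_ge k (p - 1) with h | h
  · exact hjk (h3.eq_of_lt_of_lt hj h)
  · have : k = p - 1 := by omega
    rw [this, Nat.ModEq, Nat.mod_self, Nat.mod_eq_of_lt hj] at h3
    omega

theorem B_ge {a b r : ℕ} (h : a + r = p - 1) (hj : b + r < p) : 1 ≤ finrank K (HA ι (sS ι (b + a)) Bor (b + r)) := by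
  let ψ : S K (b + r) →ₗ[K] S K (b + a) := (LinearMap.mulLeft K (X 0 ^ a) ∘ₗ (dY ^ r) ∘ₗ (S K (b + r)).subtype).codRestrict _
    fun f => X0pow_mem a (dYpow_mem r f.2)
  have hψ : ∀ f, (ψ f : PR K) = X 0 ^ a * (dY ^ r) (f : PR K) := fun f => rfl
  refine one_le_HA ι _ (Φ := ψ) ((mem_fix_hom _ _).2 fun g hg f => Subtype.ext (by
    have hA : mp ι g 1 0 = 0 := by simp [mem_Bor.1 hg]
    have hd : ι (g 0 0) * ι (g 1 1) = 1 := by rw [← map_mul, bor_det hg, map_one]
    have h0 : ι (g 0 0) ≠ 0 := left_ne_zero_of_mul_eq_one hd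
    have hp : ι (g 0 0) ^ (p - 1) = 1 := by
      rw [← map_pow, ZMod.pow_card_sub_one_eq_one (fun h => h0 (by rw [h, map_zero])), map_one]
    rw [hψ, sS_val, sS_val, hψ, dYpow_sb hA, sb_X0pow hA, mul_smul_comm, mp_apply, mp_apply]
    congr 1
    apply mul_left_cancel₀ (pow_ne_zero r h0)
    rw [← mul_pow, hd, one_pow, ← pow_add, add_comm, h, hp])) fun h0 => ?_
  have h1 := hψ (mS K _ (Fin.last _))
  rw [h0] at h1
  have h2 := congrArg (evp 1 1) h1
  simp only [mS, Fin.val_last, dYpow_Y, LinearMap.zero_apply, ZeroMemClass.coe_zero, map_zero, map_mul, map_pow, map_smul,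
    evp_mon, one_pow, mul_one, smul_eq_mul] at h2
  have h3 : (((b + r).descFactorial r : ℕ) : K) ≠ 0 := by
    rw [Ne, CharP.cast_eq_zero_iff K p]
    intro hd
    have := (Nat.Prime.dvd_factorial (Fact.out : p.Prime)).1
      (hd.trans (Dvd.intro_left _ (Nat.factorial_mul_descFactorial (show r ≤ b + r by omega))))
    omega
  exact h3 ((mul_eq_zero.1 h2.symm).resolve_left (by simp [evp]))

theorem phi_ge {j k : ℕ} (hj0 : 0 < j) (hj : j < p - 1) (hk : k < p) (hjk : j ≠ k) (h : p - 1 ≤ j + k)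
    (h2 : (j + k + 1 - p) % 2 = 0) : 1 ≤ phi (sS ι j) (sS ι k) := by
  have h1 := phi_eq ι (sS ι k) j
  have h3 := G_le ι (sS ι k) (j := j) (by omega)
  rw [Wt_bot ι hj0 hj hk hjk, finrank_bot] at h3
  have h4 := B_ge ι (a := k - (j + k + 1 - p) / 2) (b := (j + k + 1 - p) / 2) (r := j - (j + k + 1 - p) / 2) (by omega)
    (by omega)
  rw [show (j + k + 1 - p) / 2 + (k - (j + k + 1 - p) / 2) = k by omega,
    show (j + k + 1 - p) / 2 + (j - (j + k + 1 - p) / 2) = j by omega] at h4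
  omega

theorem phi_up {j k : ℕ} (hj0 : 0 < j) (hj : j < p - 1) (hk : k < p) : phi (sS ι j) (sS ι k) + (if j = k then 1 else 0) ≤
    (if j ≤ k ∧ (j + k) % 2 = 0 then 1 else 0) + (if p - 1 ≤ j + k ∧ (j + k + 1 - p) % 2 = 0 then 1 else 0) := by
  classical
  have h1 := phi_eq ι (sS ι k) j
  have h2 := B_le ι hj0 hj hk
  rw [Finset.filter_or] at h2
  have h3 := h2.trans (Finset.card_union_le _ _)
  have a1 : (Finset.univ.filter fun m : Fin (k + 1) => 2 * m = k + j).card ≤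
      if j ≤ k ∧ (j + k) % 2 = 0 then 1 else 0 := by
    split_ifs with hc
    · refine Finset.card_le_one.2 fun a ha b hb => Fin.ext ?_
      simp only [Finset.mem_filter] at ha hb
      omega
    · refine (Finset.card_eq_zero.2 (Finset.filter_eq_empty_iff.2 fun m _ hm => hc ?_)).le
      have := m.2
      omega
  have a2 : (Finset.univ.filter fun m : Fin (k + 1) => 2 * m + p = k + j + 1).card ≤
      if p - 1 ≤ j + k ∧ (j + k + 1 - p) % 2 = 0 then 1 else 0 := by
    split_ifs with hc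
    · refine Finset.card_le_one.2 fun a ha b hb => Fin.ext ?_
      simp only [Finset.mem_filter] at ha hb
      omega
    · refine (Finset.card_eq_zero.2 (Finset.filter_eq_empty_iff.2 fun m _ hm => hc ?_)).le
      omega
  have a3 : (if j = k then 1 else 0) ≤ finrank K (HA ι (sS ι k) ⊤ j) := by
    split_ifs with hc
    · subst hc; exact G_self ι j
    · exact Nat.zero_le _
  omega

theorem fix_x [IsAlgClosed K] (hp : p ≠ 3) {k : ℕ} (hk : k < p) : (k + 3 - 2 * k % 3) / 3 ≤ kd (sS ι k xx - 1) := by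
  obtain ⟨ω, hω⟩ : ∃ ω : K, ω ^ 2 + ω + 1 = 0 := by
    obtain ⟨ω, hω⟩ := IsAlgClosed.exists_root (Polynomial.X ^ 2 + Polynomial.X + 1 : Polynomial K) (by
      have : (Polynomial.X ^ 2 + Polynomial.X + 1 : Polynomial K).degree = 2 := by compute_degree!
      rw [this]; decide)
    exact ⟨ω, by simpa using hω⟩
  have h3 : (3 : K) ≠ 0 := by
    intro h
    have := (CharP.cast_eq_zero_iff K p 3).1 (by exact_mod_cast h)
    exact hp ((Nat.prime_dvd_prime_iff_eq Fact.out Nat.prime_three).1 this)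
  have hd : ω - ω ^ 2 ≠ 0 := fun h => h3 (by linear_combination (-2 * ω - 1) * h - (2 * ω - 3) * hω)
  let A : Matrix (Fin 2) (Fin 2) K := !![1, 1; -ω, -ω ^ 2]
  obtain ⟨d, hdd⟩ : ∃ d : K, d * (ω - ω ^ 2) = 1 := ⟨_, inv_mul_cancel₀ hd⟩
  let A' : Matrix (Fin 2) (Fin 2) K := d • !![-ω ^ 2, -1; ω, 1]
  have hA : A' * A = 1 := by
    ext i j
    fin_cases i <;> fin_cases j <;> simp [A, A', Matrix.mul_apply, Fin.sum_univ_two] <;>
      linear_combination hdd
  have hx : mp ι xx * A = A * !![ω, 0; 0, ω ^ 2] := by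
    ext i j
    fin_cases i <;> fin_cases j <;> simp [A, Matrix.mul_apply, Fin.sum_univ_two]
    · linear_combination hω
    · linear_combination (ω ^ 2 - ω + 1) * hω
  let c := (k + 3 - 2 * k % 3) / 3
  have hc : ∀ i : Fin c, 2 * k % 3 + 3 * i < k + 1 := fun i => by have := i.2; omega
  let v : Fin c → LinearMap.ker (sS ι k xx - 1) := fun i =>
    ⟨⟨sb A (mon K k (2 * k % 3 + 3 * i)), sb_mem A (mon_mem (by have := hc i; omega))⟩, by
      rw [LinearMap.mem_ker, LinearMap.sub_apply, sub_eq_zero]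
      apply Subtype.ext
      rw [sS_val, ← sb_mul, hx, sb_mul]
      show _ = sb A _
      congr 1
      have h1 : ω ^ 3 = 1 := by linear_combination (ω - 1) * hω
      have h2 : ω ^ (k - (2 * k % 3 + 3 * i)) * (ω ^ 2) ^ (2 * k % 3 + 3 * i) = 1 := by
        obtain ⟨t, ht⟩ : 3 ∣ k - (2 * k % 3 + 3 * i) + 2 * (2 * k % 3 + 3 * i) := by have := hc i; omega
        rw [← pow_mul, ← pow_add, ht, pow_mul, h1, one_pow]
      simp only [mon, map_mul, map_pow, sb_X, of_apply, cons_val', cons_val_zero, cons_val_one, cons_val_fin_one,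
        zero_smul, add_zero, zero_add, smul_pow, smul_mul_smul_comm, h2, one_smul]⟩
  have hv : LinearIndependent K v := by
    apply LinearIndependent.of_comp ((sb A').toLinearMap ∘ₗ (S K k).subtype ∘ₗ (LinearMap.ker (sS ι k xx - 1)).subtype)
    have := (mon_li ι hk).comp (fun i : Fin c => (⟨_, hc i⟩ : Fin (k + 1))) fun a b hab => Fin.ext (by
      simp only [Fin.mk.injEq] at hab; omega)
    have e : ⇑((sb A').toLinearMap ∘ₗ (S K k).subtype ∘ₗ (LinearMap.ker (sS ι k xx - 1)).subtype) ∘ v =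
        (fun m : Fin (k + 1) => mon K k m) ∘ fun i : Fin c => (⟨_, hc i⟩ : Fin (k + 1)) := by
      funext i
      show sb A' (sb A _) = _
      rw [← sb_mul, hA, sb_one]
      rfl
    rw [e]
    exact this
  simpa using hv.fintype_card_le_finrank

end Val

end Cfsg.Agent.Fix6
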