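import Cfsg.Agent.Fix6.GK
import Cfsg.Agent.Fix6.Ineq

/-! Consequences of small fixed spaces: Scott's lemma, elementary abelian subgroups, base change. -/

set_option autoImplicit false
set_option linter.unusedSectionVars false

namespace Cfsg.Agent.Fix6

open Module
open scoped TensorProduct

variable {K : Type*} [Field K] {V : Type*} [AddCommGroup V] [Module K V] [FiniteDimensional K V]

theorem scott (x y : End K V) (hx : Function.Injective x) {l : K} (hl : l ≠ 0) :
    kd (x - algebraMap K (End K V) l) + kd (y - algebraMap K (End K V) l) + kd (x * y - algebraMap K (End K V) (l ^ 2)) +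
      finrank K (LinearMap.range (x - algebraMap K (End K V) l) ⊔ LinearMap.range (y - algebraMap K (End K V) l) :
        Submodule K V) ≤
    2 * finrank K V + finrank K (LinearMap.ker (x - algebraMap K (End K V) l) ⊓
      LinearMap.ker (y - algebraMap K (End K V) l) : Submodule K V) := by
  set X := x - algebraMap K (End K V) l with hX
  set Y := y - algebraMap K (End K V) l with hY
  have eX : ∀ v, X v = x v - l • v := fun v => rfl
  have eY : ∀ v, Y v = y v - l • v := fun v => rfl
  have key : ∀ v ∈ LinearMap.ker (x * y - algebraMap K (End K V) (l ^ 2)), x (Y v) = -l • X v := fun v hv => by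
    have : x (y v) = l ^ 2 • v := mem_ker_sub.1 hv
    rw [eY, eX, map_sub, this, map_smul]
    module
  have h1 := dimle (LinearMap.ker (x * y - algebraMap K (End K V) (l ^ 2))) (LinearMap.ker X ⊓ LinearMap.ker Y) X
    (LinearMap.range X ⊓ (LinearMap.range Y).map x) (fun v hv => ⟨⟨v, rfl⟩, (-l)⁻¹ • Y v, ⟨(-l)⁻¹ • v, map_smul _ _ _⟩, by
      rw [map_smul, key v hv, smul_smul, inv_mul_cancel₀ (neg_ne_zero.2 hl), one_smul]⟩)
    fun v hv h0 => ⟨h0, hx (by rw [key v hv, h0, smul_zero, map_zero])⟩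
  have h2 := Submodule.finrank_sup_add_finrank_inf_eq (LinearMap.range X) ((LinearMap.range Y).map x)
  have h3 : finrank K ((LinearMap.range Y).map x) ≤ finrank K (LinearMap.range Y) := Submodule.finrank_map_le _ _
  have h4 : finrank K (LinearMap.range X ⊔ LinearMap.range Y : Submodule K V) ≤
      finrank K (LinearMap.range X ⊔ (LinearMap.range Y).map x : Submodule K V) := by
    refine Submodule.finrank_mono (sup_le le_sup_left fun w hw => ?_)
    have : w = l⁻¹ • (x w - X w) := by rw [eX, sub_sub_cancel, smul_smul, inv_mul_cancel₀ hl, one_smul]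
    rw [this]
    exact Submodule.smul_mem _ _ (sub_mem (Submodule.mem_sup_right ⟨w, hw, rfl⟩) (Submodule.mem_sup_left ⟨w, rfl⟩))
  have h5 := LinearMap.finrank_range_add_finrank_ker X
  have h6 := LinearMap.finrank_range_add_finrank_ker Y
  unfold kd
  omega

theorem scott3 [IsAlgClosed K] (h3 : (3 : K) ≠ 0) (x y : End K V) (hx : x * x * x = 1) (hy : y * y * y = 1)
    (hxy : x * y * (x * y) * (x * y) = 1) : finrank K V ≤ kd (x - 1) + kd (y - 1) + kd (x * y - 1) + 2 * kd (x - y) := by
  obtain ⟨ω, hω⟩ := exists_omega K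
  have hω0 : ω ≠ 0 := by rintro rfl; simp at hω
  have hd : ω - ω ^ 2 ≠ 0 := fun h => h3 (by linear_combination (-2 * ω - 1) * h - (2 * ω - 3) * hω)
  have hinj : Function.Injective x := fun a b h => by
    have := congrArg (x * x) h
    rwa [← End.mul_apply, ← End.mul_apply, hx] at this
  have s1 := scott x y hinj hω0
  have s2 := scott x y hinj (pow_ne_zero 2 hω0)
  rw [show (ω ^ 2) ^ 2 = ω by linear_combination (ω ^ 2 - ω) * hω] at s2
  have c1 := kd_cube x hx hω
  have c2 := kd_cube y hy hω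
  have c3 := kd_cube (x * y) hxy hω
  have e : ∀ (A : End K V) (l : K) (v : V), (A - algebraMap K (End K V) l) v = A v - l • v := fun _ _ _ => rfl
  set X1 := x - algebraMap K (End K V) ω
  set X2 := x - algebraMap K (End K V) (ω ^ 2)
  set Y1 := y - algebraMap K (End K V) ω
  set Y2 := y - algebraMap K (End K V) (ω ^ 2)
  have a1 := Submodule.finrank_sup_add_finrank_inf_eq (LinearMap.ker X1 ⊓ LinearMap.ker Y1)
    (LinearMap.ker X2 ⊓ LinearMap.ker Y2)
  have a2 : LinearMap.ker X1 ⊓ LinearMap.ker Y1 ⊓ (LinearMap.ker X2 ⊓ LinearMap.ker Y2) = ⊥ := by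
    rw [Submodule.eq_bot_iff]
    rintro v ⟨⟨h1, -⟩, h2, -⟩
    refine (smul_eq_zero.1 ?_).resolve_left hd
    rw [sub_smul, ← mem_ker_sub.1 h1, ← mem_ker_sub.1 h2, sub_self]
  rw [a2, finrank_bot] at a1
  have a3 : finrank K (LinearMap.ker X1 ⊓ LinearMap.ker Y1 ⊔ LinearMap.ker X2 ⊓ LinearMap.ker Y2 : Submodule K V) ≤
      kd (x - y) := by
    refine Submodule.finrank_mono (sup_le ?_ ?_) <;> rintro v ⟨h1, h2⟩ <;>
      exact sub_eq_zero.2 ((mem_ker_sub.1 h1).trans (mem_ker_sub.1 h2).symm)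
  have b1 := Submodule.finrank_sup_add_finrank_inf_eq (LinearMap.range X1 ⊔ LinearMap.range Y1)
    (LinearMap.range X2 ⊔ LinearMap.range Y2)
  have b2 : LinearMap.range X1 ⊔ LinearMap.range Y1 ⊔ (LinearMap.range X2 ⊔ LinearMap.range Y2) = ⊤ := by
    rw [eq_top_iff]
    intro v _
    have : v = (ω - ω ^ 2)⁻¹ • (X2 v - X1 v) := by
      rw [e, e, sub_sub_sub_cancel_left, ← sub_smul, smul_smul, inv_mul_cancel₀ hd, one_smul]
    rw [this]
    exact Submodule.smul_mem _ _ (sub_mem (Submodule.mem_sup_right (Submodule.mem_sup_left ⟨v, rfl⟩))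
      (Submodule.mem_sup_left (Submodule.mem_sup_left ⟨v, rfl⟩)))
  rw [b2, finrank_top] at b1
  have b3 : finrank K (LinearMap.range (x - y)) ≤ finrank K ((LinearMap.range X1 ⊔ LinearMap.range Y1) ⊓
      (LinearMap.range X2 ⊔ LinearMap.range Y2) : Submodule K V) := by
    refine Submodule.finrank_mono ?_
    rintro _ ⟨v, rfl⟩
    constructor
    · rw [show (x - y) v = X1 v - Y1 v by rw [e, e, sub_sub_sub_cancel_right]; rfl]
      exact sub_mem (Submodule.mem_sup_left ⟨v, rfl⟩) (Submodule.mem_sup_right ⟨v, rfl⟩)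
    · rw [show (x - y) v = X2 v - Y2 v by rw [e, e, sub_sub_sub_cancel_right]; rfl]
      exact sub_mem (Submodule.mem_sup_left ⟨v, rfl⟩) (Submodule.mem_sup_right ⟨v, rfl⟩)
  have b4 := LinearMap.finrank_range_add_finrank_ker (x - y)
  unfold kd at *
  omega

theorem five (A B : End K V) (hA : A ^ 5 = 1) (hB : B ^ 5 = 1) (h : Commute A B) :
    (B - 1) * ((A * B ^ 0 - 1) * ((A * B ^ 1 - 1) * ((A * B ^ 2 - 1) * ((A * B ^ 3 - 1) * (A * B ^ 4 - 1))))) = 0 := by
  let S := Subring.closure {A, B}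
  have hS : IsMulCommutative S := Subring.isMulCommutative_closure (by
    rintro x (rfl | rfl) y (rfl | rfl)
    exacts [rfl, h.eq, h.eq.symm, rfl])
  let _ : CommRing S := { (inferInstance : Ring S) with mul_comm := hS.is_comm.comm }
  let a : S := ⟨A, Subring.subset_closure (by simp)⟩
  let b : S := ⟨B, Subring.subset_closure (by simp)⟩
  have ha : a ^ 5 = 1 := Subtype.ext hA
  have hb : b ^ 5 = 1 := Subtype.ext hB
  have : (b - 1) * ((a * b ^ 0 - 1) * ((a * b ^ 1 - 1) * ((a * b ^ 2 - 1) * ((a * b ^ 3 - 1) * (a * b ^ 4 - 1))))) = 0 := by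
    linear_combination ((b - 1) * b ^ 10) * ha + ((b - 1) * (b ^ 5 + 1) - b ^ 6 * a ^ 4 + b ^ 3 * (1 + b ^ 2) * a ^ 3 -
      b * (1 + b ^ 2) * a ^ 2 + a) * hb
  exact congrArg Subtype.val this

variable {H : Type*} [Group H] {ρ : Representation K H V}

theorem Small.char (hs : Small ρ) {q : ℕ} [Fact q.Prime] (hq : q ≤ 6) {g : H} (hg : g ^ q = 1) (h1 : g ≠ 1) :
    (q : K) ≠ 0 := by
  intro h
  have := hs g h1
  have : Nontrivial V := Module.nontrivial_of_finrank_pos (R := K) (by omega)
  have : CharP K q := (CharP.charP_iff_prime_eq_zero Fact.out).2 h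
  have : CharP (End K V) q := charP_of_injective_algebraMap (algebraMap K (End K V)).injective q
  have h2 := kd_pow_le (ρ g - 1) q
  rw [sub_pow_char_of_commute _ (Commute.one_right _), ← map_pow, hg, map_one, one_pow, sub_self, kd_zero] at h2
  unfold kd at h2
  nlinarith

theorem Small.two (hs : Small ρ) (a b : H) (ha : orderOf a = 2) (hb : orderOf b = 2) : a = b := by
  have k : ∀ c : H, orderOf c = 2 → 5 * finrank K V < 6 * kd (ρ c + 1) := fun c hc => by
    have h1 := hs c (by rintro rfl; simp at hc)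
    have h2 := kd_mul_le (ρ c - 1) (ρ c + 1)
    have : ρ c * ρ c = 1 := by rw [← map_mul, ← pow_two, ← hc, pow_orderOf_eq_one, map_one]
    rw [sub_mul, mul_add, this, mul_one, one_mul, add_comm, sub_self, kd_zero] at h2
    unfold kd at *
    omega
  by_contra hne
  have h1 := hs (a⁻¹ * b) fun h => hne (inv_mul_eq_one.1 h)
  have h2 := le_inf_add (LinearMap.ker (ρ a + 1)) (LinearMap.ker (ρ b + 1))
  have h3 : finrank K (LinearMap.ker (ρ a + 1) ⊓ LinearMap.ker (ρ b + 1) : Submodule K V) ≤ kd (ρ (a⁻¹ * b) - 1) := by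
    refine Submodule.finrank_mono ?_
    rintro v ⟨h1, h2⟩
    have e : ρ b v = ρ a v := add_right_cancel ((show ρ b v + v = 0 from h2).trans (show ρ a v + v = 0 from h1).symm)
    show ρ (a⁻¹ * b) v - v = 0
    rw [map_mul, End.mul_apply, e, ← End.mul_apply, ← map_mul, inv_mul_cancel, map_one, End.one_apply, sub_self]
  have := k a ha
  have := k b hb
  unfold kd at *
  omega

theorem Small.three [IsAlgClosed K] (hs : Small ρ) (x y : H) (hx : orderOf x = 3) (hy : orderOf y = 3)
    (hxy : (x * y) ^ 3 = 1) : y = x ∨ y = x⁻¹ := by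
  by_contra hne
  push Not at hne
  have hx1 : x ≠ 1 := by rintro rfl; simp at hx
  have hy1 : y ≠ 1 := by rintro rfl; simp at hy
  have hx3 : x ^ 3 = 1 := hx ▸ pow_orderOf_eq_one x
  have hy3 : y ^ 3 = 1 := hy ▸ pow_orderOf_eq_one y
  have c : ∀ g : H, g ^ 3 = 1 → ρ g * ρ g * ρ g = 1 := fun g hg => by
    rw [← map_mul, ← map_mul, ← pow_three', hg, map_one]
  have h := scott3 (by exact_mod_cast hs.char (q := 3) (by norm_num) hx3 hx1) (ρ x) (ρ y) (c x hx3) (c y hy3)
    (by rw [← map_mul]; exact c _ hxy)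
  rw [← map_mul] at h
  have a1 := hs x hx1
  have a2 := hs y hy1
  have a3 := hs (x * y) fun h => hne.2 (eq_inv_of_mul_eq_one_right h)
  have a4 := hs (y⁻¹ * x) fun h => hne.1 (inv_mul_eq_one.1 h)
  have a5 : kd (ρ x - ρ y) ≤ kd (ρ (y⁻¹ * x) - 1) := by
    refine Submodule.finrank_mono fun v hv => ?_
    have e : ρ x v = ρ y v := sub_eq_zero.1 hv
    show ρ (y⁻¹ * x) v - v = 0
    rw [map_mul, End.mul_apply, e, ← End.mul_apply, ← map_mul, inv_mul_cancel, map_one, End.one_apply, sub_self]
  unfold kd at *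
  omega

theorem Small.five (hs : Small ρ) (a b : H) (ha : orderOf a = 5) (hb : orderOf b = 5) (h : Commute a b) :
    b ∈ Subgroup.zpowers a := by
  by_contra hne
  have ha5 : a ^ 5 = 1 := ha ▸ pow_orderOf_eq_one a
  have hb5 : b ^ 5 = 1 := hb ▸ pow_orderOf_eq_one b
  have k : ∀ i < 5, 6 * kd (ρ a * ρ b ^ i - 1) < finrank K V := fun i hi => by
    rw [← map_pow, ← map_mul]
    refine hs _ fun e => ?_
    rcases Nat.eq_zero_or_pos i with rfl | h0
    · rw [pow_zero, mul_one] at e
      rw [e] at ha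
      simp at ha
    apply hne
    have : b = (b ^ i) ^ (i ^ 3) := by
      conv_lhs => rw [← pow_one b]
      rw [← pow_mul, pow_eq_pow_iff_modEq, hb]
      interval_cases i <;> decide
    rw [this, eq_inv_of_mul_eq_one_right e]
    exact pow_mem (inv_mem (Subgroup.mem_zpowers a)) _
  have h0 := Fix6.five (ρ a) (ρ b) (by rw [← map_pow, ha5, map_one]) (by rw [← map_pow, hb5, map_one]) (h.map ρ)
  have h1 := kd_list_le [ρ b - 1, ρ a * ρ b ^ 0 - 1, ρ a * ρ b ^ 1 - 1, ρ a * ρ b ^ 2 - 1, ρ a * ρ b ^ 3 - 1,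
    ρ a * ρ b ^ 4 - 1]
  simp only [List.prod_cons, List.prod_nil, mul_one, List.map_cons, List.map_nil, List.sum_cons, List.sum_nil] at h1
  rw [h0, kd_zero] at h1
  have := hs b (by rintro rfl; simp at hb)
  have := k 0 (by omega)
  have := k 1 (by omega)
  have := k 2 (by omega)
  have := k 3 (by omega)
  have := k 4 (by omega)
  unfold kd at *
  omega

theorem Small.baseChange (hs : Small ρ) (L : Type*) [Field L] [Algebra K L] :
    Small (K := L) ((End.baseChangeHom K L V).toMonoidHom.comp ρ) := by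
  intro h hh
  have h1 := hs h hh
  have e : ((End.baseChangeHom K L V).toMonoidHom.comp ρ) h - 1 =
      TensorProduct.AlgebraTensorModule.lTensor L L (ρ h - 1) := by
    rw [← map_one (End.baseChangeHom K L V)]
    exact (map_sub (End.baseChangeHom K L V) _ _).symm
  rw [e, Module.Flat.ker_lTensor_eq, Module.finrank_baseChange]
  have h2 := LinearMap.finrank_range_le
    (TensorProduct.AlgebraTensorModule.lTensor L L (LinearMap.ker (ρ h - 1)).subtype)
  rw [Module.finrank_baseChange] at h2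
  omega

end Cfsg.Agent.Fix6
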