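import Cfsg.Agent.Fix6.Eps

/-! The modules of binary forms of degree `j` for `SL₂(p)`. -/

set_option autoImplicit false
set_option linter.unusedSectionVars false

namespace Cfsg.Agent.Fix6

open Module Matrix MvPolynomial
open scoped MatrixGroups

section Poly
variable {K : Type*} [Field K]

/-- polynomials in two variables -/
abbrev PR (K : Type*) [Field K] := MvPolynomial (Fin 2) K

/-- linear substitution -/
noncomputable def sb (A : Matrix (Fin 2) (Fin 2) K) : PR K →ₐ[K] PR K := aeval fun j => A 0 j • X 0 + A 1 j • X 1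

theorem sb_X (A : Matrix (Fin 2) (Fin 2) K) (j : Fin 2) : sb A (X j) = A 0 j • X 0 + A 1 j • X 1 := aeval_X _ _

theorem sb_mul (A B : Matrix (Fin 2) (Fin 2) K) (f : PR K) : sb (A * B) f = sb A (sb B f) := by
  have : sb (A * B) = (sb A).comp (sb B) := by
    apply MvPolynomial.algHom_ext
    intro j
    simp only [AlgHom.comp_apply, sb_X, map_add, map_smul, Matrix.mul_apply, Fin.sum_univ_two]
    module
  rw [this]; rfl

theorem sb_one (f : PR K) : sb 1 f = f := by
  have : sb (1 : Matrix (Fin 2) (Fin 2) K) = AlgHom.id K _ := by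
    apply MvPolynomial.algHom_ext
    intro j
    fin_cases j <;> simp [sb_X]
  rw [this]; rfl

/-- the monomials of degree `j` -/
noncomputable def mon (K : Type*) [Field K] (j m : ℕ) : PR K := X 0 ^ (j - m) * X 1 ^ m

/-- binary forms of degree `j` -/
noncomputable def S (K : Type*) [Field K] (j : ℕ) : Submodule K (PR K) :=
  Submodule.span K (Set.range fun m : Fin (j + 1) => mon K j m)

instance S_fin (j : ℕ) : FiniteDimensional K (S K j) := FiniteDimensional.span_of_finite K (Set.finite_range _)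

theorem mon_mem {j m : ℕ} (h : m ≤ j) : mon K j m ∈ S K j :=
  Submodule.subset_span ⟨⟨m, by omega⟩, rfl⟩

theorem S_ind {j : ℕ} {T : Submodule K (PR K)} (L : PR K →ₗ[K] PR K) (h : ∀ m ≤ j, L (mon K j m) ∈ T) {f : PR K}
    (hf : f ∈ S K j) : L f ∈ T := by
  have : S K j ≤ T.comap L := Submodule.span_le.2 (by
    rintro _ ⟨m, rfl⟩
    exact h m (by omega))
  exact this hf

theorem X0_mon {j m : ℕ} (h : m ≤ j) : X 0 * mon K j m = mon K (j + 1) m := by
  rw [mon, mon, show j + 1 - m = j - m + 1 by omega]; ring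

theorem X1_mon (j m : ℕ) : X 1 * mon K j m = mon K (j + 1) (m + 1) := by
  rw [mon, mon, show j + 1 - (m + 1) = j - m by omega]; ring

theorem X0_mem {j : ℕ} {f : PR K} (hf : f ∈ S K j) : X 0 * f ∈ S K (j + 1) :=
  S_ind (LinearMap.mulLeft K (X 0)) (fun m hm => by
    rw [LinearMap.mulLeft_apply, X0_mon hm]; exact mon_mem (by omega)) hf

theorem X1_mem {j : ℕ} {f : PR K} (hf : f ∈ S K j) : X 1 * f ∈ S K (j + 1) :=
  S_ind (LinearMap.mulLeft K (X 1)) (fun m hm => by
    rw [LinearMap.mulLeft_apply, X1_mon]; exact mon_mem (by omega)) hf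

theorem linpow_mem (a c : K) (n : ℕ) {j : ℕ} {f : PR K} (hf : f ∈ S K j) :
    (a • X 0 + c • X 1) ^ n * f ∈ S K (j + n) := by
  induction n with
  | zero => simpa using hf
  | succ n ih =>
    rw [pow_succ', mul_assoc, add_mul, smul_mul_assoc, smul_mul_assoc]
    exact add_mem (Submodule.smul_mem _ _ (X0_mem ih)) (Submodule.smul_mem _ _ (X1_mem ih))

theorem one_mem_S : (1 : PR K) ∈ S K 0 := by
  simpa [mon] using mon_mem (K := K) (le_refl 0)

theorem sb_mem (A : Matrix (Fin 2) (Fin 2) K) {j : ℕ} {f : PR K} (hf : f ∈ S K j) : sb A f ∈ S K j :=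
  S_ind (sb A).toLinearMap (fun m hm => by
    have := linpow_mem (A 0 0) (A 1 0) (j - m) (linpow_mem (A 0 1) (A 1 1) m one_mem_S)
    rw [show 0 + m + (j - m) = j by omega, mul_one] at this
    simpa [mon, sb_X] using this) hf

theorem X0pow_mem (a : ℕ) {j : ℕ} {f : PR K} (hf : f ∈ S K j) : X 0 ^ a * f ∈ S K (j + a) := by
  simpa using linpow_mem 1 0 a hf

/-- the derivative in the second variable -/
noncomputable abbrev dY : PR K →ₗ[K] PR K := (pderiv (1 : Fin 2) : Derivation K (PR K) (PR K)).toLinearMap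

theorem dY_mul (f g : PR K) : dY (f * g) = dY f * g + f * dY g := pderiv_mul

theorem dY_X0pow (a : ℕ) (f : PR K) : dY (X 0 ^ a * f) = X 0 ^ a * dY f := by
  rw [dY_mul]
  have : dY (X 0 ^ a : PR K) = 0 := by
    show pderiv 1 (X 0 ^ a : PR K) = 0
    rw [pderiv_pow, pderiv_X_of_ne (by decide), mul_zero]
  rw [this, zero_mul, zero_add]

theorem dY_mon (j m : ℕ) : dY (mon K (j + 1) (m + 1)) = ((m + 1 : ℕ) : K) • mon K j m := by
  rw [mon, dY_X0pow, mon, show j + 1 - (m + 1) = j - m by omega]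
  show _ * pderiv 1 (X 1 ^ (m + 1) : PR K) = _
  rw [pderiv_pow, pderiv_X_self, Nat.cast_smul_eq_nsmul]
  simp only [add_tsub_cancel_right, nsmul_eq_mul]
  ring

theorem dY_mon0 (j : ℕ) : dY (mon K j 0) = 0 := by
  rw [mon, dY_X0pow, pow_zero]
  show _ * pderiv 1 (1 : PR K) = _
  simp

theorem dY_mem {j : ℕ} {f : PR K} (hf : f ∈ S K (j + 1)) : dY f ∈ S K j :=
  S_ind dY (fun m hm => by
    cases m with
    | zero => rw [dY_mon0]; exact zero_mem _
    | succ m => rw [dY_mon]; exact Submodule.smul_mem _ _ (mon_mem (by omega))) hf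

theorem dYpow_mem (r : ℕ) {j : ℕ} {f : PR K} (hf : f ∈ S K (j + r)) : (dY ^ r) f ∈ S K j := by
  induction r generalizing f with
  | zero => simpa using hf
  | succ r ih => rw [pow_succ, End.mul_apply]; exact ih (dY_mem hf)

theorem dYpow_Y (r b : ℕ) : (dY ^ r) (mon K (b + r) (b + r)) = (((b + r).descFactorial r : ℕ) : K) • mon K b b := by
  induction r with
  | zero => simp
  | succ r ih =>
    rw [pow_succ, End.mul_apply, ← add_assoc, dY_mon, map_smul, ih, smul_smul, Nat.succ_descFactorial_succ, Nat.cast_mul]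

theorem dY_sb {A : Matrix (Fin 2) (Fin 2) K} (hA : A 1 0 = 0) (f : PR K) : dY (sb A f) = A 1 1 • sb A (dY f) := by
  induction f using MvPolynomial.induction_on with
  | C a =>
    have h1 : sb A (C a) = C a := (sb A).commutes a
    have h2 : dY (C a : PR K) = 0 := pderiv_C
    rw [h1, h2, map_zero, smul_zero]
  | add f g hf hg => simp only [map_add, hf, hg, smul_add]
  | mul_X f j hf =>
    have h0 : dY (X 0 : PR K) = 0 := pderiv_X_of_ne (by decide)
    have h1 : dY (X 1 : PR K) = 1 := pderiv_X_self 1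
    rw [map_mul, dY_mul, dY_mul, hf, map_add, map_mul, map_mul, sb_X, map_add, map_smul, map_smul, h0, h1]
    fin_cases j
    · simp [hA, h0, smul_comm (A 0 0) (A 1 1)]
    · simp [h1]

theorem dYpow_sb {A : Matrix (Fin 2) (Fin 2) K} (hA : A 1 0 = 0) (r : ℕ) (f : PR K) :
    (dY ^ r) (sb A f) = A 1 1 ^ r • sb A ((dY ^ r) f) := by
  induction r with
  | zero => simp
  | succ r ih => rw [pow_succ', End.mul_apply, End.mul_apply, ih, map_smul, dY_sb hA, smul_smul, pow_succ]

theorem sb_X0pow {A : Matrix (Fin 2) (Fin 2) K} (hA : A 1 0 = 0) (a : ℕ) (f : PR K) :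
    sb A (X 0 ^ a * f) = A 0 0 ^ a • (X 0 ^ a * sb A f) := by
  rw [map_mul, map_pow, sb_X, hA, zero_smul, add_zero, smul_pow, smul_mul_assoc]

theorem lin_expand (b d : K) (j : ℕ) :
    (b • X 0 + d • X 1 : PR K) ^ j = ∑ m : Fin (j + 1), (b ^ (j - m) * d ^ (m : ℕ) * (j.choose m : K)) • mon K j m := by
  rw [add_comm, add_pow, Finset.sum_range]
  refine Finset.sum_congr rfl fun m _ => ?_
  simp only [mon, smul_eq_C_mul, map_mul, map_pow, map_natCast]
  ring

/-- evaluation -/
noncomputable def evp (x y : K) : PR K →ₐ[K] K := aeval ![x, y]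

theorem evp_mon (x y : K) (j m : ℕ) : evp x y (mon K j m) = x ^ (j - m) * y ^ m := by
  simp [evp, mon]

theorem evp_sb (x y : K) (A : Matrix (Fin 2) (Fin 2) K) (f : PR K) :
    evp x y (sb A f) = evp (x * A 0 0 + y * A 1 0) (x * A 0 1 + y * A 1 1) f := by
  have : (evp x y).comp (sb A) = evp (x * A 0 0 + y * A 1 0) (x * A 0 1 + y * A 1 1) := by
    apply MvPolynomial.algHom_ext
    intro j
    fin_cases j <;> simp [sb_X, evp, mul_comm]
  rw [← this]; rfl

end Poly

section Char
variable {K : Type*} [Field K] {p : ℕ} [Fact p.Prime] [CharP K p] (ι : ZMod p →+* K)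

include ι in
theorem vdm {V : Type*} [AddCommGroup V] [Module K V] {N : ℕ} (hN : N ≤ p) (c : Fin N → V)
    (h : ∀ s : ZMod p, ∑ m : Fin N, ι s ^ (m : ℕ) • c m = 0) (m : Fin N) : c m = 0 := by
  rw [← Module.forall_dual_apply_eq_zero_iff K]
  intro φ
  have := Matrix.eq_zero_of_forall_index_sum_pow_mul_eq_zero (f := fun i : Fin N => ((i : ℕ) : K))
    (v := fun i => φ (c i)) (fun a b hab => Fin.ext (CharP.natCast_injOn_Iio K p
      (show (a : ℕ) < p by omega) (show (b : ℕ) < p by omega) hab)) fun j => by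
      have := congrArg φ (h (j : ℕ))
      simpa using this
  exact congrFun this m

theorem S_coef {j : ℕ} {f : PR K} (hf : f ∈ S K j) : ∃ c : Fin (j + 1) → K, ∑ m, c m • mon K j m = f :=
  (Submodule.mem_span_range_iff_exists_fun K).1 hf

theorem evp_sum {j : ℕ} (c : Fin (j + 1) → K) (y : K) :
    evp 1 y (∑ m : Fin (j + 1), c m • mon K j m) = ∑ m : Fin (j + 1), y ^ (m : ℕ) • c m := by
  simp [evp_mon, mul_comm]

theorem ev_inj {j : ℕ} (hj : j < p) {f : PR K} (hf : f ∈ S K j) (h : ∀ s, evp 1 (ι s) f = 0) : f = 0 := by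
  obtain ⟨c, rfl⟩ := S_coef hf
  have := vdm ι (N := j + 1) hj c fun s => by rw [← evp_sum, h]
  simp [this]

include ι in
theorem mon_li {j : ℕ} (hj : j < p) : LinearIndependent K fun m : Fin (j + 1) => mon K j m := by
  rw [Fintype.linearIndependent_iff]
  intro c hc
  exact vdm ι (N := j + 1) hj c fun s => by rw [← evp_sum, hc, map_zero]

include ι in
theorem S_rank {j : ℕ} (hj : j < p) : finrank K (S K j) = j + 1 := by
  rw [S, finrank_span_eq_card (mon_li ι hj), Fintype.card_fin]

include ι in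
theorem dY_ker {j : ℕ} (hj : j < p) {f : PR K} (hf : f ∈ S K j) (h : dY f = 0) : ∃ c : K, f = c • mon K j 0 := by
  obtain ⟨c, rfl⟩ := S_coef hf
  cases j with
  | zero => exact ⟨c 0, by simp⟩
  | succ j =>
    rw [map_sum, Fin.sum_univ_succ] at h
    simp only [map_smul, Fin.val_zero, dY_mon0, smul_zero, zero_add, Fin.val_succ, dY_mon, smul_smul] at h
    have := Fintype.linearIndependent_iff.1 (mon_li ι (j := j) (by omega)) _ h
    refine ⟨c 0, ?_⟩
    rw [Fin.sum_univ_succ, Finset.sum_eq_zero, add_zero]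
    · rfl
    intro m _
    have h1 : ((m + 1 : ℕ) : K) ≠ 0 := by
      rw [Ne, CharP.cast_eq_zero_iff K p]
      exact Nat.not_dvd_of_pos_of_lt (by omega) (by omega)
    rw [(mul_eq_zero.1 (this m)).resolve_right h1, zero_smul]

/-- matrices over the big field -/
def mp (g : SL(2, ZMod p)) : Matrix (Fin 2) (Fin 2) K := (g : Matrix (Fin 2) (Fin 2) (ZMod p)).map ι

@[simp] theorem mp_apply (g : SL(2, ZMod p)) (i j : Fin 2) : mp ι g i j = ι (g i j) := rfl

/-- the action on polynomials -/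
noncomputable def sR : Representation K SL(2, ZMod p) (PR K) where
  toFun g := (sb (mp ι g)).toLinearMap
  map_one' := by
    refine LinearMap.ext fun f => ?_
    have : mp ι 1 = 1 := Matrix.map_one _ (map_zero ι) (map_one ι)
    rw [this]
    exact sb_one f
  map_mul' g h := by
    refine LinearMap.ext fun f => ?_
    have : mp ι (g * h) = mp ι g * mp ι h := Matrix.map_mul
    rw [this]
    exact sb_mul _ _ f

/-- the action on forms of degree `j` -/
noncomputable def sS (j : ℕ) : Representation K SL(2, ZMod p) (S K j) :=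
  (sR ι).subrepresentation (S K j) fun _ _ hf => sb_mem _ hf

theorem sS_val (j : ℕ) (g : SL(2, ZMod p)) (f : S K j) : (sS ι j g f : PR K) = sb (mp ι g) f := rfl

/-- monomials as elements of `S` -/
noncomputable def mS (K : Type*) [Field K] (j : ℕ) (m : Fin (j + 1)) : S K j := ⟨mon K j m, mon_mem (by omega)⟩

theorem S_ext {V : Type*} [AddCommGroup V] [Module K V] {j : ℕ} {Φ : S K j →ₗ[K] V} (h : ∀ m, Φ (mS K j m) = 0) :
    Φ = 0 := by
  ext ⟨f, hf⟩
  obtain ⟨c, rfl⟩ := S_coef hf
  have : (⟨_, hf⟩ : S K j) = ∑ m, c m • mS K j m := Subtype.ext (by simp [mS])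
  rw [this]
  simp [h]

theorem sS_X {j : ℕ} {g : SL(2, ZMod p)} (hg : g ∈ Bor) : sS ι j g (mS K j 0) = ι (g 0 0) ^ j • mS K j 0 := by
  apply Subtype.ext
  have := sb_X0pow (A := mp ι g) (by simp [mem_Bor.1 hg]) j 1
  simpa [sS_val, mS, mon] using this

theorem sS_Y {j : ℕ} (g : SL(2, ZMod p)) : sS ι j g (mS K j (Fin.last j)) =
    ∑ m : Fin (j + 1), (ι (g 0 1) ^ (j - m) * ι (g 1 1) ^ (m : ℕ) * (j.choose m : K)) • mS K j m := by
  apply Subtype.ext
  have := lin_expand (ι (g 0 1)) (ι (g 1 1)) j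
  simpa [sS_val, mS, mon, sb_X] using this

/-- `Y^j` generates under the unitriangular group -/
theorem genY {V : Type*} [AddCommGroup V] [Module K V] {j : ℕ} (hj : j < p) {Φ : S K j →ₗ[K] V}
    (h : ∀ s, Φ (sS ι j (uu s) (mS K j (Fin.last j))) = 0) : Φ = 0 := by
  apply S_ext
  intro m
  have := vdm ι (N := j + 1) hj (fun m => (j.choose m.rev : K) • Φ (mS K j m.rev)) (fun s => by
    have := h s
    rw [sS_Y, map_sum, ← Equiv.sum_comp Fin.revPerm] at this
    rw [← this]
    refine Finset.sum_congr rfl fun m _ => ?_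
    simp only [uu01, uu11, map_one, one_pow, mul_one, map_smul, smul_smul, Fin.revPerm_apply, Fin.val_rev]
    rw [show j - (j + 1 - (m + 1)) = m by omega]) m.rev
  rw [Fin.rev_rev] at this
  refine (smul_eq_zero.1 this).resolve_left ?_
  rw [CharP.cast_eq_zero_iff K p]
  intro hd
  have := (Nat.Prime.dvd_factorial (Fact.out : p.Prime)).1
    (hd.trans (Dvd.intro _ ((mul_assoc _ _ _).symm.trans (Nat.choose_mul_factorial_mul_factorial (show (m : ℕ) ≤ j by omega)))))
  omega

/-- `X^j` generates under the group -/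
theorem genX {V : Type*} [AddCommGroup V] [Module K V] {j : ℕ} (hj : j < p) {Φ : S K j →ₗ[K] V}
    (h : ∀ g, Φ (sS ι j g (mS K j 0)) = 0) : Φ = 0 := by
  apply genY ι hj
  intro s
  have e : mS K j (Fin.last j) = sS ι j ww⁻¹ (mS K j 0) := by
    apply Subtype.ext
    simp only [sS_val, mS, mon, sb_X, map_mul, map_pow, mp_apply, (sl_inv _).1, (sl_inv _).2.2.1]
    simp
  rw [e, ← End.mul_apply, ← map_mul]
  exact h _

end Char

end Cfsg.Agent.Fix6
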